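/-
Automorphisms and the rank one subgroups: additive maps on root groups are semilinear.
-/
import Cfsg.Agent.Lib.Chev.CharDiag
import Cfsg.Agent.Lib.Chev.RootCent

set_option autoImplicit false

namespace CfsgLib.Chev

open Matrix

section field

variable {F : Type*} [Field F]

/-- An additive bijection with `f (t² u) = f(t)² f(u)` and `f 1 = 1` of a finite field is a ring automorphism. -/
lemma exists_ringEquiv_of_jordan [Finite F] (f : F → F) (hadd : ∀ x y, f (x + y) = f x + f y) (h1 : f 1 = 1)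
    (hinj : Function.Injective f) (hk : ∀ t u, t ≠ 0 → f (t * t * u) = f t * f t * f u) :
    ∃ σ : F ≃+* F, ∀ t, σ t = f t := by
  have h0 : f 0 = 0 := by
    have := hadd 0 0
    rw [add_zero] at this
    exact left_eq_add.1 this
  have hsq : ∀ t, f (t * t) = f t * f t := by
    intro t
    by_cases ht : t = 0
    · rw [ht, mul_zero, h0, mul_zero]
    · have := hk t 1 ht
      rwa [mul_one, h1, mul_one] at this
  have hmul : ∀ x y, f (x * y) = f x * f y := by
    by_cases h2 : (2 : F) = 0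
    · intro x y
      haveI : CharP F 2 := CharTwo.of_one_ne_zero_of_two_eq_zero one_ne_zero h2
      haveI := Fintype.ofFinite F
      obtain ⟨s, hs⟩ := FiniteField.isSquare_of_char_two (ringChar.eq F 2) y
      rw [hs]
      by_cases hs0 : s = 0
      · rw [hs0, mul_zero, mul_zero, h0, mul_zero]
      · rw [hsq, mul_comm x, hk s x hs0, mul_comm]
    · intro x y
      have e1 := hsq (x + y)
      have e2 : (x + y) * (x + y) = (x * x + y * y) + (x * y + x * y) := by ring
      rw [e2, hadd, hadd, hadd, hsq, hsq, hadd x y] at e1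
      have e3 : f (x * y) + f (x * y) = f x * f y + f x * f y := by
        linear_combination e1
      have e4 : 2 * f (x * y) = 2 * (f x * f y) := by
        linear_combination e3
      exact mul_left_cancel₀ h2 e4
  have hsurj : Function.Surjective f := Finite.injective_iff_surjective.1 hinj
  let g : F →+* F :=
    { toFun := f
      map_one' := h1
      map_mul' := hmul
      map_zero' := h0
      map_add' := hadd }
  have hg : Function.Bijective g := ⟨hinj, hsurj⟩
  exact ⟨RingEquiv.ofBijective g hg, fun t => rfl⟩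

end field

section sl2

variable {F G : Type*} [Field F] [Group G] {X Y : F → G}

/-- The lower unitriangular matrices. -/
def smY (s : F) : SpecialLinearGroup (Fin 2) F := ⟨!![1, 0; s, 1], by simp [Matrix.det_fin_two]⟩

/-- The product `x(α) y(β) x(α)`. -/
def smA (α β : F) : SpecialLinearGroup (Fin 2) F :=
  ⟨!![1 + α * β, α * (2 + α * β); β, 1 + α * β], by
    rw [Matrix.det_fin_two_of]
    ring⟩

/-- The inverse of `smA`. -/
def smAi (α β : F) : SpecialLinearGroup (Fin 2) F :=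
  ⟨!![1 + α * β, -(α * (2 + α * β)); -β, 1 + α * β], by
    rw [Matrix.det_fin_two_of]
    ring⟩

lemma smA_eq (α β : F) : smA α β = smX α * smY β * smX α := by
  apply Subtype.ext
  show !![1 + α * β, α * (2 + α * β); β, 1 + α * β] = !![1, α; 0, 1] * !![1, 0; β, 1] * !![1, α; 0, 1]
  ext i j
  fin_cases i <;> fin_cases j <;> simp [Matrix.mul_apply, Fin.sum_univ_two] <;> ring

lemma smA_mul (α β : F) : smA α β * smAi α β = 1 := by
  apply Subtype.ext
  show !![1 + α * β, α * (2 + α * β); β, 1 + α * β] * !![1 + α * β, -(α * (2 + α * β)); -β, 1 + α * β] = 1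
  ext i j
  fin_cases i <;> fin_cases j <;> simp [Matrix.mul_apply, Fin.sum_univ_two] <;> ring

lemma sm_entry (α β u w : F) : ((smA α β * smY u * smAi α β * smX w : SpecialLinearGroup (Fin 2) F) : Matrix (Fin 2) (Fin 2) F) 1 0 =
    u * ((1 + α * β) * (1 + α * β)) := by
  show (!![1 + α * β, α * (2 + α * β); β, 1 + α * β] * !![1, 0; u, 1] * !![1 + α * β, -(α * (2 + α * β)); -β, 1 + α * β] * !![1, w; 0, 1]) 1 0 = _
  simp [Matrix.mul_apply, Fin.sum_univ_two]
  ring

/-- The key relation: the element `x(α) y(β) x(α)` interchanges the two root groups only when `α β = -1`. -/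
lemma SL2Rel.key_offdiag (R : SL2Rel X Y) (hker : ∀ g : SpecialLinearGroup (Fin 2) F, sl2Hom R g = 1 → g 1 0 = 0) {α β u w : F} (hu : u ≠ 0)
    (h : (X α * Y β * X α) * Y u = X w * (X α * Y β * X α)) : α * β = -1 := by
  have hρX : ∀ t, sl2Hom R (smX t) = X t := fun t => sl2Hom_upper R _ t rfl
  have hρY : ∀ t, sl2Hom R (smY t) = Y t := fun t => sl2Hom_lower R _ t rfl
  have hA : sl2Hom R (smA α β) = X α * Y β * X α := by
    rw [smA_eq, map_mul, map_mul, hρX, hρY]
  have hAi : sl2Hom R (smAi α β) = (X α * Y β * X α)⁻¹ := by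
    rw [← hA, eq_inv_iff_mul_eq_one]
    have h1 : smAi α β * smA α β = 1 := by rw [eq_inv_of_mul_eq_one_right (smA_mul α β), inv_mul_cancel]
    rw [← map_mul, h1, map_one]
  have h1 : sl2Hom R (smA α β * smY u * smAi α β * smX (-w)) = 1 := by
    rw [map_mul, map_mul, map_mul, hA, hρY, hAi, hρX, h, mul_inv_cancel_right, ← R.X_neg, mul_inv_cancel]
  have h2 := hker _ h1
  have h3 := sm_entry α β u (-w)
  have h4 : (smA α β * smY u * smAi α β * smX (-w)) 1 0 = ((smA α β * smY u * smAi α β * smX (-w) : SpecialLinearGroup (Fin 2) F) : Matrix (Fin 2) (Fin 2) F) 1 0 := rfl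
  rw [h4, h3] at h2
  have h5 := (mul_eq_zero.1 h2).resolve_left hu
  have h6 := mul_self_eq_zero.1 h5
  linear_combination h6

lemma nn_hom {Γ : Type*} [Group Γ] (ι : G →* Γ) (X Y : F → G) (t : F) :
    ι (nn X Y t) = nn (fun s => ι (X s)) (fun s => ι (Y s)) t := by
  simp [nn, map_mul]

lemma hh_hom {Γ : Type*} [Group Γ] (ι : G →* Γ) (X Y : F → G) (t : F) :
    ι (hh X Y t) = hh (fun s => ι (X s)) (fun s => ι (Y s)) t := by
  simp [hh, map_mul, nn_hom]

/-- The relations pass to a group embedded in the ambient one. -/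
lemma SL2Rel.of_hom {Γ : Type*} [Group Γ] (ι : G →* Γ) (hι : Function.Injective ι) {X Y : F → G}
    (R : SL2Rel (fun t => ι (X t)) (fun t => ι (Y t))) : SL2Rel X Y where
  X_add a b := hι (by rw [map_mul]; exact R.X_add a b)
  Y_add a b := hι (by rw [map_mul]; exact R.Y_add a b)
  nX t ht u := hι (by rw [map_mul, map_mul, nn_hom]; exact R.nX t ht u)
  nY t ht u := hι (by rw [map_mul, map_mul, nn_hom]; exact R.nY t ht u)
  sym t ht := hι (by rw [map_mul, map_mul, nn_hom]; exact R.sym t ht)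
  hhm s t hs ht := hι (by rw [map_mul, hh_hom, hh_hom, hh_hom]; exact R.hhm s t hs ht)

/-- An injective homomorphism mapping the root groups of two `SL₂`s onto each other is semilinear. -/
theorem rank1_of_aut [Finite F] {Γ : Type*} [Group Γ] {X' Y' : F → Γ} (R : SL2Rel X Y) (R' : SL2Rel X' Y')
    (hX'inj : Function.Injective X') (hY'inj : Function.Injective Y') (hXinj : Function.Injective X)
    (hYinj : Function.Injective Y) (hker : ∀ g : SpecialLinearGroup (Fin 2) F, sl2Hom R' g = 1 → g 1 0 = 0)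
    (θ : G →* Γ) (hθ : Function.Injective θ) (φ ψ : F → F) (hX : ∀ t, θ (X t) = X' (φ t)) (hY : ∀ t, θ (Y t) = Y' (ψ t)) :
    ∃ a : F, a ≠ 0 ∧ ∃ σ : F ≃+* F, (∀ t, φ t = a * σ t) ∧ (∀ t, ψ t = a⁻¹ * σ t) ∧
      (∀ t, t ≠ 0 → θ (hh X Y t) = hh X' Y' (σ t)) ∧ (∀ t, t ≠ 0 → θ (nn X Y t) = nn X' Y' (a * σ t)) := by
  have addφ : ∀ s t, φ (s + t) = φ s + φ t := by
    intro s t
    apply hX'inj
    rw [← hX, ← R.X_add, map_mul, hX, hX, R'.X_add]
  have addψ : ∀ s t, ψ (s + t) = ψ s + ψ t := by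
    intro s t
    apply hY'inj
    rw [← hY, ← R.Y_add, map_mul, hY, hY, R'.Y_add]
  have injφ : Function.Injective φ := by
    intro s t h
    apply hXinj
    apply hθ
    rw [hX, hX, h]
  have injψ : Function.Injective ψ := by
    intro s t h
    apply hYinj
    apply hθ
    rw [hY, hY, h]
  have φ0 : φ 0 = 0 := by
    have := addφ 0 0
    rw [add_zero] at this
    exact left_eq_add.1 this
  have ψ0 : ψ 0 = 0 := by
    have := addψ 0 0
    rw [add_zero] at this
    exact left_eq_add.1 this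
  have φne : ∀ t, t ≠ 0 → φ t ≠ 0 := by
    intro t ht h
    exact ht (injφ (h.trans φ0.symm))
  have ψne : ∀ t, t ≠ 0 → ψ t ≠ 0 := by
    intro t ht h
    exact ht (injψ (h.trans ψ0.symm))
  have φneg : ∀ t, φ (-t) = - φ t := by
    intro t
    have := addφ t (-t)
    rw [add_neg_cancel, φ0] at this
    exact (eq_neg_of_add_eq_zero_right this.symm)
  have ψneg : ∀ t, ψ (-t) = - ψ t := by
    intro t
    have := addψ t (-t)
    rw [add_neg_cancel, ψ0] at this
    exact (eq_neg_of_add_eq_zero_right this.symm)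
  have θnn0 : ∀ t, θ (nn X Y t) = X' (φ t) * Y' (ψ (-t⁻¹)) * X' (φ t) := by
    intro t
    simp only [nn, map_mul, hX, hY]
  -- the first relation
  have R1 : ∀ t, t ≠ 0 → φ t * ψ (-t⁻¹) = -1 := by
    intro t ht
    have h1 := congrArg θ (R.nY t ht 1)
    rw [map_mul, map_mul, θnn0, hY, hX] at h1
    exact R'.key_offdiag hker (ψne 1 one_ne_zero) h1
  have θnn : ∀ t, t ≠ 0 → θ (nn X Y t) = nn X' Y' (φ t) := by
    intro t ht
    rw [θnn0]
    unfold nn
    have h1 := R1 t ht
    have h2 : ψ (-t⁻¹) = -(φ t)⁻¹ := by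
      have h3 := φne t ht
      calc ψ (-t⁻¹) = (φ t)⁻¹ * (φ t * ψ (-t⁻¹)) := by rw [← mul_assoc, inv_mul_cancel₀ h3, one_mul]
        _ = -(φ t)⁻¹ := by rw [h1]; ring
    rw [h2]
  -- the second relation
  have R2 : ∀ t, t ≠ 0 → ∀ u, ψ (-(t⁻¹ * t⁻¹ * u)) = -((φ t)⁻¹ * (φ t)⁻¹ * φ u) := by
    intro t ht u
    have h1 := congrArg θ (R.nX t ht u)
    rw [map_mul, map_mul, θnn t ht, hY, hX, R'.nX (φ t) (φne t ht) (φ u)] at h1
    exact hY'inj (mul_right_cancel h1).symm
  set a := φ 1 with ha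
  have ha0 : a ≠ 0 := φne 1 one_ne_zero
  have R3 : ∀ u, ψ u = a⁻¹ * a⁻¹ * φ u := by
    intro u
    have h1 := R2 1 one_ne_zero (-u)
    rw [inv_one, mul_one, one_mul, neg_neg, φneg] at h1
    rw [h1]
    ring
  have R4 : ∀ t, t ≠ 0 → φ t * (a⁻¹ * a⁻¹ * φ t⁻¹) = 1 := by
    intro t ht
    have h1 := R1 t ht
    rw [R3, φneg] at h1
    linear_combination -h1
  let f : F → F := fun u => a⁻¹ * φ u
  have hf : ∀ u, f u = a⁻¹ * φ u := fun _ => rfl
  obtain ⟨σ, hσ⟩ := exists_ringEquiv_of_jordan f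
    (by
      intro x y
      simp only [hf, addφ]
      ring)
    (by
      simp only [hf]
      exact inv_mul_cancel₀ ha0)
    (by
      intro x y h
      apply injφ
      exact mul_left_cancel₀ (inv_ne_zero ha0) h)
    (by
      intro t u ht
      simp only [hf]
      have h1 := R2 t⁻¹ (inv_ne_zero ht) u
      rw [inv_inv, R3, φneg] at h1
      have h2 := R4 t ht
      have h3 := φne t⁻¹ (inv_ne_zero ht)
      have h4 : (φ t⁻¹)⁻¹ = φ t * (a⁻¹ * a⁻¹) := by
        calc (φ t⁻¹)⁻¹ = (φ t * (a⁻¹ * a⁻¹ * φ t⁻¹)) * (φ t⁻¹)⁻¹ := by rw [h2, one_mul]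
          _ = φ t * (a⁻¹ * a⁻¹) * (φ t⁻¹ * (φ t⁻¹)⁻¹) := by ring
          _ = _ := by rw [mul_inv_cancel₀ h3, mul_one]
      rw [h4] at h1
      have h5 : φ (t * t * u) = φ t * φ t * (a⁻¹ * a⁻¹) * φ u := by
        apply mul_left_cancel₀ (mul_ne_zero (inv_ne_zero ha0) (inv_ne_zero ha0))
        linear_combination -h1
      rw [h5]
      ring)
  have hφσ : ∀ t, φ t = a * σ t := by
    intro t
    rw [hσ, hf, ← mul_assoc, mul_inv_cancel₀ ha0, one_mul]
  refine ⟨a, ha0, σ, hφσ, ?_, ?_, ?_⟩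
  · intro t
    rw [R3, hφσ]
    field_simp
  · intro t ht
    have hst : σ t ≠ 0 := by
      intro h
      exact ht ((map_eq_zero σ).1 h)
    unfold hh
    rw [map_mul, θnn t ht, θnn (-1) (by simp), φneg, ← ha, hφσ t, mul_comm a]
    rw [← R'.h_n (σ t) a hst ha0, mul_assoc]
    have := R'.nn_mul_neg a
    rw [this, mul_one]
    rfl
  · intro t ht
    rw [θnn t ht, hφσ]

end sl2

section chev

open Cfsg.Lie Cfsg.Lie.ChevalleyDatum

variable {D : ChevalleyDatum} {C : Cert} (hG : Good D C) {F : Type*} [Field F] (hE : Extra D C)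

/-- Root elements as elements of the group. -/
noncomputable def Good.xS (hG : Good D C) {r : ℕ} (hr : r < D.nroots) (t : F) : ↥(D.group F) :=
  ⟨hG.xG r t, hG.mem_group hr t⟩

@[simp] lemma Good.xS_val {r : ℕ} (hr : r < D.nroots) (t : F) : ((hG.xS hr t : ↥(D.group F)) : GL D.Idx F) = hG.xG r t := rfl

lemma Good.sl2S {r : ℕ} (hr : r < D.nroots) : SL2Rel (hG.xS (F := F) hr) (hG.xS (F := F) (hG.shp.neg_lt r hr)) :=
  SL2Rel.of_hom (D.group F).subtype (Subgroup.subtype_injective _) (hG.sl2 (F := F) hr)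

include hE in
lemma Extra.sl2_ker {r : ℕ} (hr : r < D.nroots) (hrp : D.nroots / 2 ≤ r) (g : SpecialLinearGroup (Fin 2) F)
    (hg : sl2Hom (hG.sl2 (F := F) hr) g = 1) : g 1 0 = 0 := by
  by_contra hc
  have R := hG.sl2 (F := F) hr
  rw [sl2Hom_apply, phi_mk' g hc] at hg
  set t := -(g 1 0)⁻¹ with ht
  have ht0 : t ≠ 0 := neg_ne_zero.2 (inv_ne_zero hc)
  set a := g 0 0 / g 1 0
  set d := g 1 1 / g 1 0
  have h1 : nn (hG.xG (F := F) r) (hG.xG (D.neg r)) t = hG.xG r (-a) * hG.xG r (-d) := by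
    have e1 : hG.xG r (-a) = (hG.xG (F := F) r a)⁻¹ := (hG.xG_neg r a).symm
    have e2 : hG.xG r (-d) = (hG.xG (F := F) r d)⁻¹ := (hG.xG_neg r d).symm
    rw [e1, e2]
    have e3 : (hG.xG (F := F) r a)⁻¹ * (hG.xG (F := F) r d)⁻¹ = (hG.xG (F := F) r a)⁻¹ * (hG.xG (F := F) r a * nn (hG.xG (F := F) r) (hG.xG (D.neg r)) t * hG.xG r d) * (hG.xG (F := F) r d)⁻¹ := by
      rw [hg, mul_one]
    rw [e3]
    group
  rw [hG.xG_add] at h1
  have h2 := R.nX t ht0 1
  rw [h1, hG.xG_add] at h2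
  have h3 : hG.xG (D.neg r) (-(t⁻¹ * t⁻¹ * 1)) = hG.xG r (-a + -d + 1 + -(-a + -d)) := by
    have e1 : hG.xG r (-a + -d + 1) = hG.xG (D.neg r) (-(t⁻¹ * t⁻¹ * 1)) * hG.xG r (-a + -d) := h2
    rw [← hG.xG_add, e1, mul_assoc, mul_assoc, hG.xG_add r (-a + -d), add_neg_cancel, hG.xG_zero, mul_one, mul_one]
  have hs := hG.shp.neg_lt r hr
  have h4 := hE.xG_root_inj hG hs hrp hr (by
    intro h
    have : (1 : F) = 0 := by linear_combination h
    exact one_ne_zero this) h3
  have h5 := hE.neg_of_high hG hr hrp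
  omega

end chev

end CfsgLib.Chev
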