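/-
Automorphisms: normalization so as to preserve `U` and `V`; the permutation of the fundamental root groups.
-/
import Cfsg.Agent.Lib.Chev.AutRank1
import Cfsg.Agent.Lib.Chev.Parab

set_option autoImplicit false

namespace CfsgLib.BN

open Cfsg

variable {G : Type*} [Group G] {P : BNPair G}

/-- An automorphism preserving `B` permutes the minimal overgroups of `B`. -/
theorem exists_min_parabolic (θ : G ≃* G) (hθ : ∀ g, g ∈ P.B ↔ θ g ∈ P.B) {s : G} (hs : s ∈ P.S) :
    ∃ s' ∈ P.S, ∀ g, g ∈ P.parabolic {s} ↔ θ g ∈ P.parabolic {s'} := by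
  have hpar : P.parabolic ∅ = P.B := by
    unfold Cfsg.BNPair.parabolic
    simp
  set M0 : Subgroup G := (P.parabolic {s}).comap θ.symm.toMonoidHom with hM0
  have hM0m : ∀ g, g ∈ M0 ↔ θ.symm g ∈ P.parabolic {s} := fun g => Iff.rfl
  have hBM0 : P.B ≤ M0 := by
    intro g hg
    rw [hM0m]
    apply le_parabolic
    rw [hθ]
    simpa using hg
  have hM0e := eq_parabolic_of_le M0 hBM0
  have hne0 : (P.S ∩ (M0 : Set G)).Nonempty := by
    by_contra hne
    rw [Set.not_nonempty_iff_eq_empty] at hne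
    rw [hne, hpar] at hM0e
    have h1 : θ s ∈ M0 := by
      rw [hM0m]
      simpa using mem_parabolic_of_mem (P := P) (Set.mem_singleton s)
    rw [hM0e, ← hθ] at h1
    exact S_not_mem_B hs h1
  obtain ⟨s', hs', hs'M⟩ := hne0
  refine ⟨s', hs', ?_⟩
  set M1 : Subgroup G := (P.parabolic {s'}).comap θ.toMonoidHom with hM1
  have hM1m : ∀ g, g ∈ M1 ↔ θ g ∈ P.parabolic {s'} := fun g => Iff.rfl
  have hBM1 : P.B ≤ M1 := by
    intro g hg
    rw [hM1m]
    apply le_parabolic
    rwa [← hθ]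
  have hP0 : P.parabolic {s'} ≤ M0 := by
    unfold Cfsg.BNPair.parabolic
    refine sup_le hBM0 ((Subgroup.closure_le _).2 ?_)
    rintro x rfl
    exact hs'M
  have hM1le : M1 ≤ P.parabolic {s} := by
    intro g hg
    have h1 := hP0 ((hM1m g).1 hg)
    rw [hM0m] at h1
    simpa using h1
  have hM1e := eq_parabolic_of_le M1 hBM1
  have hne1 : (P.S ∩ (M1 : Set G)).Nonempty := by
    by_contra hne
    rw [Set.not_nonempty_iff_eq_empty] at hne
    rw [hne, hpar] at hM1e
    have h1 : θ.symm s' ∈ M1 := by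
      rw [hM1m]
      simpa using mem_parabolic_of_mem (P := P) (Set.mem_singleton s')
    rw [hM1e, hθ] at h1
    simp only [MulEquiv.apply_symm_apply] at h1
    exact S_not_mem_B hs' h1
  obtain ⟨s2, hs2, hs2M⟩ := hne1
  have h3 : s2 ∈ P.parabolic {s} := hM1le hs2M
  have hsing : ({s} : Set G) ⊆ P.S := by
    rintro _ rfl
    exact hs
  have h4 := (S_mem_parabolic_iff hsing hs2).1 h3
  have h5 : s2 = s := h4
  subst h5
  have hP1 : P.parabolic {s2} ≤ M1 := by
    unfold Cfsg.BNPair.parabolic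
    refine sup_le hBM1 ((Subgroup.closure_le _).2 ?_)
    rintro x rfl
    exact hs2M
  intro g
  exact ⟨fun h => (hM1m g).1 (hP1 h), fun h => hM1le ((hM1m g).2 h)⟩

end CfsgLib.BN

namespace CfsgLib.Chev

open Cfsg.Lie Cfsg.Lie.ChevalleyDatum CfsgLib.BN

/-- Sylow subgroups: a subgroup of the same order is conjugate. -/
lemma exists_conj_of_card {G : Type*} [Group G] [Finite G] {p : ℕ} [Fact p.Prime] (P : Sylow p G) (Q : Subgroup G)
    (hQ : Nat.card Q = Nat.card P) : ∃ g : G, ∀ y, y ∈ Q ↔ g⁻¹ * y * g ∈ (P : Subgroup G) := by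
  have hcard : Nat.card Q = p ^ (Nat.card G).factorization p := by
    rw [hQ]
    exact P.card_eq_multiplicity
  let Q' : Sylow p G := Sylow.ofCard Q hcard
  have hQ' : (Q' : Subgroup G) = Q := Sylow.coe_ofCard Q hcard
  obtain ⟨g, hg⟩ := MulAction.exists_smul_eq G P Q'
  refine ⟨g, fun y => ?_⟩
  rw [← hQ', ← hg, Sylow.coe_subgroup_smul, Subgroup.mem_pointwise_smul_iff_inv_smul_mem]
  simp [MulAut.conj_apply]

section

variable {D : ChevalleyDatum} {C : Cert} (hG : Good D C) {F : Type*} [Field F] (hE : Extra D C)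

/-- The automorphism `θ` maps `A ∩ G` onto `A' ∩ G`. -/
def Prs (θ : ↥(D.group F) ≃* ↥(D.group F)) (A A' : Subgroup (GL D.Idx F)) : Prop :=
  ∀ g : ↥(D.group F), (g : GL D.Idx F) ∈ A ↔ ((θ g : ↥(D.group F)) : GL D.Idx F) ∈ A'

omit hG in
lemma Prs.symm {θ : ↥(D.group F) ≃* ↥(D.group F)} {A A' : Subgroup (GL D.Idx F)} (h : Prs θ A A') : Prs θ.symm A' A := by
  intro g
  have := h (θ.symm g)
  rw [MulEquiv.apply_symm_apply] at this
  exact this.symm

omit hG in
lemma Prs.inf {θ : ↥(D.group F) ≃* ↥(D.group F)} {A A' B B' : Subgroup (GL D.Idx F)} (h : Prs θ A A') (h2 : Prs θ B B') :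
    Prs θ (A ⊓ B) (A' ⊓ B') := by
  intro g
  rw [Subgroup.mem_inf, Subgroup.mem_inf, h g, h2 g]

omit hG in
/-- The automorphism preserves normalizers. -/
lemma Prs.normalizer {θ : ↥(D.group F) ≃* ↥(D.group F)} {A : Subgroup (GL D.Idx F)} (h : Prs θ A A) (hA : A ≤ D.group F)
    {g : ↥(D.group F)} (hg : (g : GL D.Idx F) ∈ Subgroup.normalizer (A : Set (GL D.Idx F))) :
    ((θ g : ↥(D.group F)) : GL D.Idx F) ∈ Subgroup.normalizer (A : Set (GL D.Idx F)) := by
  rw [Subgroup.mem_normalizer_iff] at hg ⊢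
  have key : ∀ x : ↥(D.group F), (x : GL D.Idx F) ∈ A ↔ ((θ g : ↥(D.group F)) : GL D.Idx F) * x * ((θ g : ↥(D.group F)) : GL D.Idx F)⁻¹ ∈ A := by
    intro x
    have hsym := h.symm x
    rw [hsym, hg]
    have h1 := h (g * θ.symm x * g⁻¹)
    have e : θ (g * θ.symm x * g⁻¹) = θ g * x * (θ g)⁻¹ := by
      simp [map_mul, map_inv]
    rw [e] at h1
    exact h1
  intro x
  by_cases hx : x ∈ D.group F
  · exact key ⟨x, hx⟩
  · constructor
    · intro h1
      exact absurd (hA h1) hx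
    · intro h1
      exfalso
      apply hx
      have h2 := hA h1
      have h3 : x = ((θ g : ↥(D.group F)) : GL D.Idx F)⁻¹ * (((θ g : ↥(D.group F)) : GL D.Idx F) * x * ((θ g : ↥(D.group F)) : GL D.Idx F)⁻¹) * ((θ g : ↥(D.group F)) : GL D.Idx F) := by
        group
      rw [h3]
      exact Subgroup.mul_mem _ (Subgroup.mul_mem _ (Subgroup.inv_mem _ (θ g).2) h2) (θ g).2

include hG hE

lemma Extra.radical_empty : D.unipotentRadical F ∅ = D.posUnipotent F := by
  unfold ChevalleyDatum.unipotentRadical ChevalleyDatum.posUnipotent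
  congr 1
  ext g
  constructor
  · rintro ⟨r, t, h1, _, h3⟩
    exact ⟨r, t, h1, h3⟩
  · rintro ⟨r, t, h1, h3⟩
    refine ⟨r, t, h1, ?_, h3⟩
    intro h2
    have h4 := hE.lv_pos hG h1.1 ((hE.posIff r h1.1).1 h1)
    have h5 : hG.lv r = 0 := by
      unfold Good.lv coefF
      apply Finset.sum_eq_zero
      intro j _
      have h6 := (hE.corZero r h1.1 j j.2).1 (h2.2 j j.2 (by simp))
      rw [h6, zero_mul]
    omega

omit hG hE in
lemma parabolic_empty : D.parabolicSubgroup F ∅ = D.borelSubgroup F := by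
  unfold ChevalleyDatum.parabolicSubgroup
  have : {g : GL D.Idx F | ∃ j ∈ (∅ : Set ℕ), j < D.rank ∧ (g : Matrix D.Idx D.Idx F) = D.nMat F (D.simple j) 1} = ∅ := by
    ext g
    simp
  rw [this]
  simp

/-- `N_G(U) = B`. -/
theorem Extra.normalizer_U (hB : Braid D C) :
    Subgroup.normalizer (D.posUnipotent F : Set (GL D.Idx F)) ⊓ D.group F = D.borelSubgroup F := by
  have := hE.normalizer_radical hG (F := F) hB ∅
  rwa [hE.radical_empty hG, parabolic_empty] at this

/-- An automorphism preserving `U` preserves `B`. -/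
theorem Extra.prs_borel (hB : Braid D C) {θ : ↥(D.group F) ≃* ↥(D.group F)} (h : Prs θ (D.posUnipotent F) (D.posUnipotent F)) :
    Prs θ (D.borelSubgroup F) (D.borelSubgroup F) := by
  have hN := hE.normalizer_U hG (F := F) hB
  have hU := hG.posUnipotent_le_group (F := F)
  intro g
  constructor
  · intro hg
    rw [← hN] at hg ⊢
    exact ⟨h.normalizer hU (Subgroup.mem_inf.1 hg).1, (θ g).2⟩
  · intro hg
    rw [← hN] at hg ⊢
    have h2 := h.symm.normalizer hU (g := θ g) (Subgroup.mem_inf.1 hg).1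
    rw [MulEquiv.symm_apply_apply] at h2
    exact ⟨h2, g.2⟩

/-- A monomial element exchanging positive and negative roots. -/
structure IsSwap (D : ChevalleyDatum) (π : Equiv.Perm (Fin D.nroots)) : Prop where
  pos : ∀ r : Fin D.nroots, D.nroots / 2 ≤ r.val → (π r).val < D.nroots / 2
  neg : ∀ r : Fin D.nroots, r.val < D.nroots / 2 → D.nroots / 2 ≤ (π r).val

omit hG hE in
lemma IsSwap.inv {π : Equiv.Perm (Fin D.nroots)} (h : IsSwap D π) : IsSwap D π⁻¹ where
  pos := by
    intro r hr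
    by_contra h1
    have h2 := h.pos (π⁻¹ r) (not_lt.1 h1)
    have e : π (π⁻¹ r) = r := by simp
    rw [e] at h2
    omega
  neg := by
    intro r hr
    by_contra h1
    have h2 := h.neg (π⁻¹ r) (not_le.1 h1)
    have e : π (π⁻¹ r) = r := by simp
    rw [e] at h2
    omega

/-- Positive to negative implies negative to positive. -/
lemma Extra.isSwap_of_pos {n : GL D.Idx F} {π : Equiv.Perm (Fin D.nroots)} {d : Fin D.nroots → F} (hm : IsMono hG n π d)
    (h : ∀ r : Fin D.nroots, D.nroots / 2 ≤ r.val → (π r).val < D.nroots / 2) : IsSwap D π where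
  pos := h
  neg := by
    intro r hr
    have h1 := hE.neg_of_low hG r.2 hr
    have h2 := h ⟨_, hG.shp.neg_lt _ r.2⟩ h1
    rw [hm.neg_comp r ⟨_, hG.shp.neg_lt _ r.2⟩ rfl] at h2
    by_contra h3
    have h4 := hE.neg_of_low hG (π r).2 (not_le.1 h3)
    omega

/-- Conjugation by a monomial element exchanging positive and negative roots. -/
lemma Extra.swap_conj {n : GL D.Idx F} {π : Equiv.Perm (Fin D.nroots)} {d : Fin D.nroots → F} (hm : IsMono hG n π d)
    (h : IsSwap D π) :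
    (∀ x ∈ D.posUnipotent F, n * x * n⁻¹ ∈ D.negUnipotent F) ∧ (∀ x ∈ D.negUnipotent F, n * x * n⁻¹ ∈ D.posUnipotent F) := by
  constructor
  · have hle : D.posUnipotent F ≤ (D.negUnipotent F).comap (MulAut.conj n).toMonoidHom := by
      rw [hG.posUnipotent_eq]
      apply (Subgroup.closure_le _).2
      rintro _ ⟨r, hr, t, rfl⟩
      show n * hG.xG r t * n⁻¹ ∈ D.negUnipotent F
      rw [hm.conj ⟨r, hr.1⟩ t]
      apply hG.negUnipotent_mem
      rw [hE.negIff _ (π _).2]
      exact h.pos _ ((hE.posIff r hr.1).1 hr)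
    exact fun x hx => hle hx
  · have hle : D.negUnipotent F ≤ (D.posUnipotent F).comap (MulAut.conj n).toMonoidHom := by
      rw [hG.negUnipotent_eq]
      apply (Subgroup.closure_le _).2
      rintro _ ⟨r, hr, t, rfl⟩
      show n * hG.xG r t * n⁻¹ ∈ D.posUnipotent F
      rw [hm.conj ⟨r, hr.1⟩ t]
      apply hG.posUnipotent_mem
      rw [hE.posIff _ (π _).2]
      exact h.neg _ ((hE.negIff r hr.1).1 hr)
    exact fun x hx => hle hx

/-- Conjugation by a monomial element exchanging positive and negative roots, as an equivalence. -/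
lemma Extra.swap_conj_iff {n : GL D.Idx F} {π : Equiv.Perm (Fin D.nroots)} {d : Fin D.nroots → F} (hm : IsMono hG n π d)
    (h : IsSwap D π) (x : GL D.Idx F) :
    (x ∈ D.posUnipotent F ↔ n * x * n⁻¹ ∈ D.negUnipotent F) ∧ (x ∈ D.negUnipotent F ↔ n * x * n⁻¹ ∈ D.posUnipotent F) := by
  have h1 := hE.swap_conj hG hm h
  have h2 := hE.swap_conj hG hm.inv h.inv
  rw [inv_inv] at h2
  refine ⟨⟨h1.1 x, fun hx => ?_⟩, ⟨h1.2 x, fun hx => ?_⟩⟩
  · have := h2.2 _ hx
    have e : n⁻¹ * (n * x * n⁻¹) * n = x := by group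
    rwa [e] at this
  · have := h2.1 _ hx
    have e : n⁻¹ * (n * x * n⁻¹) * n = x := by group
    rwa [e] at this

/-- Elements of `B` normalize `U`. -/
lemma Extra.borel_conj_U {b : GL D.Idx F} (hb : b ∈ D.borelSubgroup F) (x : GL D.Idx F) :
    x ∈ D.posUnipotent F ↔ b * x * b⁻¹ ∈ D.posUnipotent F := by
  have hHU := hG.diagonal_le_normalizer (F := F) (fun r => D.IsPosRoot r) (fun r hr => hr.1)
  rw [← hG.posUnipotent_eq] at hHU
  obtain ⟨u, hu, h, hh, rfl⟩ := (mem_sup_of_le_normalizer hHU).1 hb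
  have h1 := Subgroup.mem_normalizer_iff.1 (hHU hh) x
  rw [h1]
  have hunorm : ∀ y : GL D.Idx F, y ∈ D.posUnipotent F ↔ u * y * u⁻¹ ∈ D.posUnipotent F := by
    intro y
    constructor
    · intro hy
      exact Subgroup.mul_mem _ (Subgroup.mul_mem _ hu hy) (Subgroup.inv_mem _ hu)
    · intro hy
      have e : y = u⁻¹ * (u * y * u⁻¹) * u := by group
      rw [e]
      exact Subgroup.mul_mem _ (Subgroup.mul_mem _ (Subgroup.inv_mem _ hu) hy) hu
  rw [hunorm]
  have e : u * (h * x * h⁻¹) * u⁻¹ = u * h * x * (u * h)⁻¹ := by group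
  rw [e]

/-- Any automorphism can be composed with an inner one so as to preserve `U` and `V`. -/
theorem Extra.exists_normalize (hB : Braid D C) (hL : HasLong D C) [Finite F] (θ : ↥(D.group F) ≃* ↥(D.group F)) :
    ∃ (x : ↥(D.group F)) (θ₁ : ↥(D.group F) ≃* ↥(D.group F)), (∀ y, θ y = x * θ₁ y * x⁻¹) ∧
      Prs θ₁ (D.posUnipotent F) (D.posUnipotent F) ∧ Prs θ₁ (D.negUnipotent F) (D.negUnipotent F) := by
  classical
  haveI := Fintype.ofFinite F
  obtain ⟨p, hp⟩ := CharP.exists F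
  haveI : Fact p.Prime := ⟨(CharP.char_is_prime_or_zero F p).resolve_right (fun h => by
    subst h
    exact CharP.char_ne_zero_of_finite F 0 rfl)⟩
  haveI : Finite ↥(D.group F) := by
    haveI : Finite (GL D.Idx F) := inferInstance
    infer_instance
  obtain ⟨P, hP⟩ := hE.exists_sylow_unipotent hG (F := F) hB p
  have hcardsub : ∀ A : Subgroup (GL D.Idx F), A ≤ D.group F → Nat.card (A.subgroupOf (D.group F)) = Nat.card A := by
    intro A hA
    exact Nat.card_congr (Subgroup.subgroupOfEquivOfLe hA).toEquiv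
  -- first step
  obtain ⟨g, hg⟩ := exists_conj_of_card P (((D.posUnipotent F).subgroupOf (D.group F)).map θ.toMonoidHom) (by
    rw [Subgroup.card_map_of_injective θ.injective, hP])
  let θ₀ : ↥(D.group F) ≃* ↥(D.group F) := θ.trans (MulAut.conj g⁻¹)
  have hθ₀ : ∀ y, θ₀ y = g⁻¹ * θ y * g := by
    intro y
    simp [θ₀, MulAut.conj_apply]
  have hmapmem : ∀ (ϑ : ↥(D.group F) ≃* ↥(D.group F)) (A : Subgroup ↥(D.group F)) (y : ↥(D.group F)), ϑ y ∈ A.map ϑ.toMonoidHom ↔ y ∈ A := by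
    intro ϑ A y
    constructor
    · rintro ⟨z, hz, e⟩
      rwa [← ϑ.injective e]
    · intro h
      exact ⟨y, h, rfl⟩
  have hU0 : Prs θ₀ (D.posUnipotent F) (D.posUnipotent F) := by
    intro y
    have h1 := hg (θ y)
    rw [hmapmem θ, hP, ← hθ₀] at h1
    exact h1
  -- second step
  obtain ⟨n₀, hn₀, hmap⟩ := hE.exists_long_elt hG (F := F) hL
  have hcardV : Nat.card (D.negUnipotent F) = Nat.card (D.posUnipotent F) := by
    rw [← hmap]
    exact Subgroup.card_map_of_injective (MulEquiv.injective _)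
  have hVG : D.negUnipotent F ≤ D.group F := by
    rw [hG.negUnipotent_eq]
    apply (Subgroup.closure_le _).2
    rintro _ ⟨r, hr, t, rfl⟩
    exact hG.mem_group hr.1 t
  obtain ⟨k, hk⟩ := exists_conj_of_card P (((D.negUnipotent F).subgroupOf (D.group F)).map θ₀.toMonoidHom) (by
    rw [Subgroup.card_map_of_injective θ₀.injective, hP, hcardsub _ hVG, hcardsub _ hG.posUnipotent_le_group, hcardV])
  obtain ⟨b, hb, n, hn, b', hb', ek⟩ := hE.bruhat hG hB k.2
  have hbG : b ∈ D.group F := hG.borel_le_group hb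
  let b₀ : ↥(D.group F) := ⟨b, hbG⟩
  have hnG : n ∈ D.group F := hG.monomial_le_group hn
  have hk2 : ∀ y : ↥(D.group F), y ∈ ((D.negUnipotent F).subgroupOf (D.group F)).map θ₀.toMonoidHom ↔
      n⁻¹ * (b⁻¹ * y * b) * n ∈ D.posUnipotent F := by
    intro y
    rw [hk y, hP, Subgroup.mem_subgroupOf]
    have e : (((k⁻¹ * y * k : ↥(D.group F))) : GL D.Idx F) = b'⁻¹ * (n⁻¹ * (b⁻¹ * y * b) * n) * b'⁻¹⁻¹ := by
      simp only [Subgroup.coe_mul, Subgroup.coe_inv, ek]
      group
    rw [e, ← hE.borel_conj_U hG (Subgroup.inv_mem _ hb')]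
  obtain ⟨π, d, hm⟩ := hG.mono_of_mem_N hE hn
  -- the intersection with `U` is trivial
  have hzero : ∀ z ∈ D.posUnipotent F, n⁻¹ * z * n ∈ D.posUnipotent F → z = 1 := by
    intro z hz hz2
    have hzG : z ∈ D.group F := hG.posUnipotent_le_group hz
    let y : ↥(D.group F) := ⟨b * z * b⁻¹, Subgroup.mul_mem _ (Subgroup.mul_mem _ hbG hzG) (Subgroup.inv_mem _ hbG)⟩
    have hyU : (y : GL D.Idx F) ∈ D.posUnipotent F := (hE.borel_conj_U hG hb z).1 hz
    have h1 : y ∈ ((D.negUnipotent F).subgroupOf (D.group F)).map θ₀.toMonoidHom := by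
      rw [hk2]
      have e : n⁻¹ * (b⁻¹ * (y : GL D.Idx F) * b) * n = n⁻¹ * z * n := by
        show n⁻¹ * (b⁻¹ * (b * z * b⁻¹) * b) * n = n⁻¹ * z * n
        group
      rw [e]
      exact hz2
    obtain ⟨v, hv, ev⟩ := h1
    have ev' : θ₀ v = y := ev
    have hvU : (v : GL D.Idx F) ∈ D.posUnipotent F := by
      rw [hU0 v, ev']
      exact hyU
    have hvV : (v : GL D.Idx F) ∈ D.borelSubgroup F ⊓ D.negUnipotent F := Subgroup.mem_inf.2 ⟨Subgroup.mem_sup_left hvU, hv⟩
    rw [hE.borel_inf_neg hG] at hvV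
    have hv1 : v = 1 := Subtype.ext (Subgroup.mem_bot.1 hvV)
    rw [hv1, map_one] at ev'
    have h2 : b * z * b⁻¹ = 1 := (congrArg Subtype.val ev').symm
    have h3 : z = b⁻¹ * (b * z * b⁻¹) * b := by group
    rw [h3, h2]
    group
  have hswap : IsSwap D π := by
    apply hE.isSwap_of_pos hG hm
    intro r hr
    by_contra h1
    have h2 := hm.conj r (1 : F)
    have hU1 := hG.posUnipotent_mem (F := F) ((hE.posIff _ r.2).2 hr) 1
    have h3 : hG.xG (π r) (d r * 1) ∈ D.posUnipotent F := hG.posUnipotent_mem ((hE.posIff _ (π r).2).2 (not_lt.1 h1)) _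
    have h4 : n⁻¹ * hG.xG (π r) (d r * 1) * n = hG.xG r (1 : F) := by
      rw [← h2]
      group
    have h5 := hzero _ h3 (by rw [h4]; exact hU1)
    have h6 := (hE.xG_eq_one_iff hG (π r).2).1 h5
    rw [mul_one] at h6
    exact hm.d_ne r h6
  have hk3 : ∀ y : ↥(D.group F), y ∈ ((D.negUnipotent F).subgroupOf (D.group F)).map θ₀.toMonoidHom ↔
      b⁻¹ * y * b ∈ D.negUnipotent F := by
    intro y
    rw [hk2]
    have h1 := (hE.swap_conj_iff hG hm.inv hswap.inv (b⁻¹ * y * b)).2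
    rw [inv_inv] at h1
    exact h1.symm
  let θ₁ : ↥(D.group F) ≃* ↥(D.group F) := θ₀.trans (MulAut.conj b₀⁻¹)
  have hθ₁ : ∀ y, θ₁ y = b₀⁻¹ * θ₀ y * b₀ := by
    intro y
    simp [θ₁, MulAut.conj_apply]
  refine ⟨g * b₀, θ₁, ?_, ?_, ?_⟩
  · intro y
    rw [hθ₁, hθ₀]
    group
  · intro y
    rw [hU0 y, hθ₁, hE.borel_conj_U hG (Subgroup.inv_mem _ hb)]
    simp [b₀]
  · intro y
    rw [hθ₁]
    have h1 := hk3 (θ₀ y)
    rw [hmapmem θ₀, Subgroup.mem_subgroupOf] at h1
    rw [h1]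
    simp [b₀]

/-- The coset decomposition of `B n_i B`. -/
lemma Extra.borel_s_coset {i : ℕ} (hi : i < D.rank) {b' : GL D.Idx F} (hb' : b' ∈ D.borelSubgroup F) :
    ∃ b ∈ D.borelSubgroup F, ∃ t : F, hG.nG hi F * b' = b * hG.nG hi F * hG.xG (D.simple i) t := by
  have hHU := hG.diagonal_le_normalizer (F := F) (fun r => D.IsPosRoot r) (fun r hr => hr.1)
  rw [← hG.posUnipotent_eq] at hHU
  obtain ⟨u1, hu1, h1, hh1, e1⟩ := (mem_sup_of_le_normalizer hHU).1 (Subgroup.inv_mem _ hb')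
  have e2 : b' = h1⁻¹ * u1⁻¹ := by
    have := congrArg (·⁻¹) e1
    simpa using this
  have hmain := hE.Up_main hG (F := F) hi
  have hu2 : u1⁻¹ ∈ hG.Up F i ⊔ D.rootSubgroup F (D.simple i) := by
    rw [hmain.2]
    exact Subgroup.inv_mem _ hu1
  have hnorm : D.rootSubgroup F (D.simple i) ≤ Subgroup.normalizer (hG.Up F i : Set (GL D.Idx F)) :=
    le_trans le_sup_left hmain.1
  obtain ⟨u', hu', x, hx, e3⟩ := (mem_sup_of_le_normalizer hnorm).1 hu2
  obtain ⟨t, rfl⟩ := (hG.rootSubgroup_eq _ _).1 hx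
  have hsN := hG.nG_mem_monomial (F := F) hi
  refine ⟨(hG.nG hi F * h1⁻¹ * (hG.nG hi F)⁻¹) * (hG.nG hi F * u' * (hG.nG hi F)⁻¹), ?_, t, ?_⟩
  · refine Subgroup.mul_mem _ (Subgroup.mem_sup_right (hE.diagonal_conj hG hsN (Subgroup.inv_mem _ hh1))) ?_
    exact Subgroup.mem_sup_left (hG.Up_le_U i (hE.nG_conj_Up hG hi hu'))
  · rw [e2, e3]
    group

/-- Root subgroups have the order of the field. -/
lemma Extra.card_rootSubgroup {r : ℕ} (hr : r < D.nroots) : Nat.card (D.rootSubgroup F r) = Nat.card F := by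
  symm
  apply Nat.card_congr
  refine Equiv.ofBijective (fun t : F => (⟨hG.xG r t, hG.mem_rootSubgroup r t⟩ : D.rootSubgroup F r)) ⟨?_, ?_⟩
  · intro a b h
    exact hE.xG_inj hG hr (congrArg Subtype.val h)
  · rintro ⟨x, hx⟩
    obtain ⟨t, rfl⟩ := (hG.rootSubgroup_eq _ _).1 hx
    exact ⟨t, rfl⟩

/-- The element `n_i` of the group. -/
noncomputable def Good.sS (hG : Good D C) (F : Type*) [Field F] {i : ℕ} (hi : i < D.rank) : ↥(D.group F) :=
  ⟨hG.nG hi F, hG.monomial_le_group (hG.nG_mem_monomial hi)⟩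

/-- The elements of a minimal parabolic subgroup. -/
lemma Extra.parabolic_coset {P : Cfsg.BNPair ↥(D.group F)} (hPB : P.B = (D.borelSubgroup F).subgroupOf (D.group F))
    {i : ℕ} (hi : i < D.rank) (hs : hG.sS F hi ∈ P.S) {g : ↥(D.group F)}
    (hg : g ∈ P.parabolic {hG.sS F hi}) :
    (g : GL D.Idx F) ∈ D.borelSubgroup F ∨ ∃ t : F, ∃ b ∈ D.borelSubgroup F, (g : GL D.Idx F) = b * hG.nG hi F * hG.xG (D.simple i) t := by
  set s := hG.sS F hi with hs0
  have hsing : ({s} : Set ↥(D.group F)) ⊆ P.S := by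
    rintro _ rfl
    exact hs
  obtain ⟨n, hn, hgn⟩ := (mem_parabolic_iff hsing).1 hg
  have hsN : s ∈ P.N := S_mem_N hs
  have hcl0 : ∀ n ∈ Subgroup.closure ({s} : Set ↥(D.group F)), n ∈ P.B ⊓ P.N ∨ s⁻¹ * n ∈ P.B ⊓ P.N := by
    intro n hn
    induction hn using Subgroup.closure_induction with
    | mem x hx =>
      right
      rw [Set.mem_singleton_iff.1 hx, inv_mul_cancel]
      exact Subgroup.one_mem _
    | one => exact Or.inl (Subgroup.one_mem _)
    | mul x y _ _ hx hy =>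
      rcases hx with hx | hx <;> rcases hy with hy | hy
      · exact Or.inl (Subgroup.mul_mem _ hx hy)
      · right
        have e : s⁻¹ * (x * y) = (s⁻¹ * x * s) * (s⁻¹ * y) := by group
        rw [e]
        exact Subgroup.mul_mem _ (conj_T_mem' hsN hx) hy
      · right
        have e : s⁻¹ * (x * y) = (s⁻¹ * x) * y := by group
        rw [e]
        exact Subgroup.mul_mem _ hx hy
      · left
        have e : x * y = (s * s) * (s⁻¹ * (s⁻¹ * x) * s) * (s⁻¹ * y) := by group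
        rw [e]
        exact Subgroup.mul_mem _ (Subgroup.mul_mem _ (sq_mem_T hs) (conj_T_mem' hsN hx)) hy
    | inv x _ hx =>
      rcases hx with hx | hx
      · exact Or.inl (Subgroup.inv_mem _ hx)
      · right
        have e : s⁻¹ * x⁻¹ = (s⁻¹ * (s⁻¹ * x)⁻¹ * s) * (s⁻¹ * s⁻¹) := by group
        rw [e]
        exact Subgroup.mul_mem _ (conj_T_mem' hsN (Subgroup.inv_mem _ hx)) (inv_sq_mem_T hs)
  rcases hcl0 n hn with h | h
  · left
    have h1 : g ∈ (P.B : Set ↥(D.group F)) := by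
      have := dc_of_mem_B (P := P) (Subgroup.mem_inf.1 h).1
      rw [← this]
      exact hgn
    have h2 : g ∈ P.B := h1
    rw [hPB, Subgroup.mem_subgroupOf] at h2
    exact h2
  · right
    have e : n = s * (s⁻¹ * n) := by group
    rw [e, dc_congr_right (Subgroup.mem_inf.1 h).1] at hgn
    rw [mem_dc] at hgn
    obtain ⟨b, hb, b', hb', e1⟩ := hgn
    rw [hPB, Subgroup.mem_subgroupOf] at hb hb'
    obtain ⟨b2, hb2, t, e2⟩ := hE.borel_s_coset hG hi hb'
    refine ⟨t, (b : GL D.Idx F) * b2, Subgroup.mul_mem _ hb hb2, ?_⟩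
    have e3 : (g : GL D.Idx F) = b * (hG.nG hi F * b') := by
      rw [e1]
      simp [mul_assoc, hs0, Good.sS]
    rw [e3, e2]
    group

/-- The intersection of `V` with a minimal parabolic subgroup. -/
theorem Extra.neg_inf_parabolic [Finite F] {P : Cfsg.BNPair ↥(D.group F)} (hPB : P.B = (D.borelSubgroup F).subgroupOf (D.group F))
    {i : ℕ} (hi : i < D.rank) (hs : hG.sS F hi ∈ P.S) (g : ↥(D.group F)) :
    ((g : GL D.Idx F) ∈ D.negUnipotent F ∧ g ∈ P.parabolic {hG.sS F hi}) ↔ (g : GL D.Idx F) ∈ D.rootSubgroup F (D.neg (D.simple i)) := by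
  classical
  haveI : Finite ↥(D.group F) := by
    haveI : Finite (GL D.Idx F) := inferInstance
    infer_instance
  have hp := hG.simple_lt hi
  have hnp := hG.shp.neg_lt _ hp
  have hpos : D.IsPosRoot (D.simple i) := (hE.posIff _ hp).2 (hE.simple_high hG hi)
  have hneg : D.IsNegRoot (D.neg (D.simple i)) := (hE.negIff _ hnp).2 (hE.neg_of_high hG hp (hE.simple_high hG hi))
  set s := hG.sS F hi with hs0
  set Y : Subgroup ↥(D.group F) := (D.rootSubgroup F (D.neg (D.simple i))).subgroupOf (D.group F) with hY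
  set W : Subgroup ↥(D.group F) := (D.negUnipotent F).subgroupOf (D.group F) ⊓ P.parabolic {s} with hW
  have hBpar : ∀ x : ↥(D.group F), (x : GL D.Idx F) ∈ D.borelSubgroup F → x ∈ P.parabolic {s} := by
    intro x hx
    apply le_parabolic
    rw [hPB, Subgroup.mem_subgroupOf]
    exact hx
  have hspar : s ∈ P.parabolic {s} := mem_parabolic_of_mem (Set.mem_singleton s)
  have hYW : Y ≤ W := by
    intro x hx
    rw [hY, Subgroup.mem_subgroupOf] at hx
    obtain ⟨t, ht⟩ := (hG.rootSubgroup_eq _ _).1 hx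
    refine Subgroup.mem_inf.2 ⟨?_, ?_⟩
    · rw [Subgroup.mem_subgroupOf, ht]
      exact hG.negUnipotent_mem hneg t
    · have hconj : hG.nG hi F * hG.xG (D.simple i) (-t) * (hG.nG hi F)⁻¹ = hG.xG (D.neg (D.simple i)) t := by
        rw [hG.nG_conj hi hp, hE.pi_simple hG hi, hG.simple_eq hi, hE.sgp i hi]
        simp
      have e : x = s * (⟨hG.xG (D.simple i) (-t), hG.mem_group hp _⟩ : ↥(D.group F)) * s⁻¹ := by
        apply Subtype.ext
        rw [ht, ← hconj]
        rfl
      rw [e]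
      exact Subgroup.mul_mem _ (Subgroup.mul_mem _ hspar (hBpar _ (Subgroup.mem_sup_left (hG.posUnipotent_mem hpos _)))) (Subgroup.inv_mem _ hspar)
  have hBV : ∀ x : ↥(D.group F), (x : GL D.Idx F) ∈ D.borelSubgroup F → (x : GL D.Idx F) ∈ D.negUnipotent F → x = 1 := by
    intro x h1 h2
    have h3 : (x : GL D.Idx F) ∈ D.borelSubgroup F ⊓ D.negUnipotent F := Subgroup.mem_inf.2 ⟨h1, h2⟩
    rw [hE.borel_inf_neg hG] at h3
    exact Subtype.ext (Subgroup.mem_bot.1 h3)
  have hex : ∀ g : W, ∃ o : Option F, (o = none ∧ ((g : ↥(D.group F)) : GL D.Idx F) ∈ D.borelSubgroup F) ∨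
      ∃ t : F, o = some t ∧ ∃ b ∈ D.borelSubgroup F, ((g : ↥(D.group F)) : GL D.Idx F) = b * hG.nG hi F * hG.xG (D.simple i) t := by
    intro g
    rcases hE.parabolic_coset hG hPB hi hs (Subgroup.mem_inf.1 g.2).2 with h | ⟨t, h⟩
    · exact ⟨none, Or.inl ⟨rfl, h⟩⟩
    · exact ⟨some t, Or.inr ⟨t, rfl, h⟩⟩
  choose c hc using hex
  have hcinj : Function.Injective c := by
    intro g g' hgg
    have hV : ((g * g'⁻¹ : W) : ↥(D.group F)) ∈ (D.negUnipotent F).subgroupOf (D.group F) := (Subgroup.mem_inf.1 (g * g'⁻¹).2).1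
    rw [Subgroup.mem_subgroupOf] at hV
    have key : ((g : ↥(D.group F)) : GL D.Idx F) * ((g' : ↥(D.group F)) : GL D.Idx F)⁻¹ ∈ D.borelSubgroup F := by
      rcases hc g with ⟨h1, h2⟩ | ⟨t, h1, b, hb, h2⟩ <;> rcases hc g' with ⟨h3, h4⟩ | ⟨t', h3, b', hb', h4⟩
      · exact Subgroup.mul_mem _ h2 (Subgroup.inv_mem _ h4)
      · rw [h1, h3] at hgg
        simp at hgg
      · rw [h1, h3] at hgg
        simp at hgg
      · rw [h1, h3] at hgg
        have htt : t = t' := Option.some.inj hgg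
        subst htt
        rw [h2, h4]
        have e : b * hG.nG hi F * hG.xG (D.simple i) t * (b' * hG.nG hi F * hG.xG (D.simple i) t)⁻¹ = b * b'⁻¹ := by group
        rw [e]
        exact Subgroup.mul_mem _ hb (Subgroup.inv_mem _ hb')
    have h1 : ((g * g'⁻¹ : W) : ↥(D.group F)) = 1 := hBV _ key hV
    have h2 : g * g'⁻¹ = 1 := Subtype.ext h1
    exact mul_inv_eq_one.1 h2
  have hle1 : Nat.card W ≤ Nat.card F + 1 := by
    have := Nat.card_le_card_of_injective c hcinj
    rwa [Finite.card_option] at this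
  have hYc : Nat.card Y = Nat.card F := by
    have hrG : D.rootSubgroup F (D.neg (D.simple i)) ≤ D.group F := by
      intro x hx
      obtain ⟨t, rfl⟩ := (hG.rootSubgroup_eq _ _).1 hx
      exact hG.mem_group hnp t
    rw [hY, Nat.card_congr (Subgroup.subgroupOfEquivOfLe hrG).toEquiv]
    exact hE.card_rootSubgroup hG hnp
  have hq2 : 2 ≤ Nat.card F := Finite.one_lt_card
  have hdvd : Nat.card Y ∣ Nat.card W := Subgroup.card_dvd_of_le hYW
  have hWeq : Y = W := by
    apply Subgroup.eq_of_le_of_card_ge hYW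
    rw [hYc]
    rw [hYc] at hdvd
    obtain ⟨m, hm⟩ := hdvd
    have hm0 : m ≠ 0 := by
      rintro rfl
      have : Nat.card W = 0 := by simpa using hm
      exact (Nat.card_pos (α := W)).ne' this
    have hm1 : m = 1 := by
      by_contra hne
      have hm2 : 2 ≤ m := by omega
      have : Nat.card F * 2 ≤ Nat.card F * m := Nat.mul_le_mul_left _ hm2
      omega
    rw [hm, hm1, mul_one]
  constructor
  · rintro ⟨h1, h2⟩
    have h3 : g ∈ W := Subgroup.mem_inf.2 ⟨by rw [Subgroup.mem_subgroupOf]; exact h1, h2⟩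
    rw [← hWeq, hY, Subgroup.mem_subgroupOf] at h3
    exact h3
  · intro h
    have h3 : g ∈ Y := by
      rw [hY, Subgroup.mem_subgroupOf]
      exact h
    have h4 := hYW h3
    exact ⟨by
      have := (Subgroup.mem_inf.1 h4).1
      rwa [Subgroup.mem_subgroupOf] at this, (Subgroup.mem_inf.1 h4).2⟩

end

end CfsgLib.Chev
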