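/-
Automorphisms: the permutation of the fundamental root groups.
-/
import Cfsg.Agent.Lib.Chev.AutNorm

set_option autoImplicit false

namespace CfsgLib.Chev

open Cfsg.Lie Cfsg.Lie.ChevalleyDatum CfsgLib.BN

section

variable {D : ChevalleyDatum} {C : Cert} (hG : Good D C) {F : Type*} [Field F] (hE : Extra D C)

include hG hE

/-- An automorphism preserving `U` and `V` permutes the negative fundamental root groups. -/
theorem Extra.exists_perm_neg (hB : Braid D C) [Finite F] {θ : ↥(D.group F) ≃* ↥(D.group F)}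
    (hU : Prs θ (D.posUnipotent F) (D.posUnipotent F)) (hV : Prs θ (D.negUnipotent F) (D.negUnipotent F)) :
    ∃ π : Equiv.Perm (Fin D.rank), ∀ i : Fin D.rank, Prs θ (D.rootSubgroup F (D.neg (D.simple i))) (D.rootSubgroup F (D.neg (D.simple (π i)))) := by
  classical
  obtain ⟨P, hPB, hPN, hPS⟩ := hE.exists_bnpair hG hB (F := F)
  have hsS : ∀ (i : ℕ) (hi : i < D.rank), hG.sS F hi ∈ P.S := by
    intro i hi
    rw [hPS]
    exact ⟨i, hi, rfl⟩
  have hBθ : ∀ g, g ∈ P.B ↔ θ g ∈ P.B := by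
    intro g
    rw [hPB, Subgroup.mem_subgroupOf, Subgroup.mem_subgroupOf]
    exact hE.prs_borel hG hB hU g
  have hex : ∀ i : Fin D.rank, ∃ j : Fin D.rank, ∀ g, g ∈ P.parabolic {hG.sS F i.2} ↔ θ g ∈ P.parabolic {hG.sS F j.2} := by
    intro i
    obtain ⟨s', hs', h⟩ := exists_min_parabolic θ hBθ (hsS i i.2)
    rw [hPS] at hs'
    obtain ⟨j, hj, e⟩ := hs'
    have e2 : s' = hG.sS F hj := Subtype.ext e
    subst e2
    exact ⟨⟨j, hj⟩, h⟩
  choose π0 hπ0 using hex
  have hsing : ∀ i : Fin D.rank, ({hG.sS F i.2} : Set ↥(D.group F)) ⊆ P.S := by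
    rintro i _ rfl
    exact hsS i i.2
  have hinj : Function.Injective π0 := by
    intro i i' h
    have h1 : hG.sS F i.2 ∈ P.parabolic {hG.sS F i'.2} := by
      rw [hπ0 i', ← h, ← hπ0 i]
      exact mem_parabolic_of_mem (Set.mem_singleton _)
    have h2 := (S_mem_parabolic_iff (hsing i') (hsS i i.2)).1 h1
    have h3 : hG.nG i.2 F = hG.nG i'.2 F := congrArg Subtype.val h2
    have h4 := hE.nG_inj hG (F := F) i.2 i'.2 (by
      rw [← h3, inv_mul_cancel]
      exact Subgroup.one_mem _)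
    exact Fin.ext h4
  have hbij : Function.Bijective π0 := Finite.injective_iff_bijective.1 hinj
  refine ⟨Equiv.ofBijective π0 hbij, fun i g => ?_⟩
  show _ ↔ ((θ g : ↥(D.group F)) : GL D.Idx F) ∈ D.rootSubgroup F (D.neg (D.simple (π0 i)))
  rw [← hE.neg_inf_parabolic hG hPB i.2 (hsS i i.2), ← hE.neg_inf_parabolic hG hPB (π0 i).2 (hsS _ (π0 i).2), hV g, hπ0 i g]

end

/-- A word for the longest element, with its action on the fundamental roots. -/
structure LongS (D : ChevalleyDatum) (C : Cert) (w : List ℕ) (star : ℕ → ℕ) : Prop where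
  hw : ∀ i ∈ w, i < D.rank
  hneg : ∀ r < D.nroots, D.nroots / 2 ≤ r → (actW C w r).1 < D.nroots / 2
  hst : ∀ j < D.rank, star j < D.rank ∧ star (star j) = j ∧ (actW C w (D.neg (D.simple j))).1 = D.simple (star j)

section

variable {D : ChevalleyDatum} {C : Cert} (hG : Good D C) {F : Type*} [Field F] (hE : Extra D C)

include hG hE

/-- An automorphism preserving `U` and `V` permutes the positive fundamental root groups. -/
theorem Extra.exists_perm_pos (hB : Braid D C) [Finite F] {w : List ℕ} {star : ℕ → ℕ} (hLS : LongS D C w star)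
    {θ : ↥(D.group F) ≃* ↥(D.group F)}
    (hU : Prs θ (D.posUnipotent F) (D.posUnipotent F)) (hV : Prs θ (D.negUnipotent F) (D.negUnipotent F)) :
    ∃ π : Equiv.Perm (Fin D.rank), ∀ i : Fin D.rank, Prs θ (D.rootSubgroup F (D.simple i)) (D.rootSubgroup F (D.simple (π i))) := by
  classical
  have hm := hG.isMono_nW (F := F) hLS.hw
  set n := hG.nW F w with hn
  have hnN := hG.nW_mem_N (F := F) w
  have hnG : n ∈ D.group F := hG.monomial_le_group hnN
  let n0 : ↥(D.group F) := ⟨n, hnG⟩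
  have hswap : IsSwap D (hG.permW w) := by
    apply hE.isSwap_of_pos hG hm
    intro r hr
    rw [hG.permW_val hLS.hw]
    exact hLS.hneg r r.2 hr
  let θ' : ↥(D.group F) ≃* ↥(D.group F) := (MulAut.conj n0).trans (θ.trans (MulAut.conj n0⁻¹))
  have hθ' : ∀ y, θ' y = n0⁻¹ * θ (n0 * y * n0⁻¹) * n0 := by
    intro y
    simp [θ', MulAut.conj_apply]
  have hval : ∀ y : ↥(D.group F), ((n0 * y * n0⁻¹ : ↥(D.group F)) : GL D.Idx F) = n * y * n⁻¹ := fun _ => rfl
  have hval' : ∀ y : ↥(D.group F), ((n0⁻¹ * y * n0 : ↥(D.group F)) : GL D.Idx F) = n⁻¹ * y * n := fun _ => rfl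
  have hc1 := hE.swap_conj_iff hG hm hswap
  have hc2 := hE.swap_conj_iff hG hm.inv hswap.inv
  have hU' : Prs θ' (D.posUnipotent F) (D.posUnipotent F) := by
    intro y
    rw [hθ', hval', (hc1 y).1, ← hval, hV _]
    have := (hc2 ((θ (n0 * y * n0⁻¹) : ↥(D.group F)) : GL D.Idx F)).2
    rw [inv_inv] at this
    exact this
  have hV' : Prs θ' (D.negUnipotent F) (D.negUnipotent F) := by
    intro y
    rw [hθ', hval', (hc1 y).2, ← hval, hU _]
    have := (hc2 ((θ (n0 * y * n0⁻¹) : ↥(D.group F)) : GL D.Idx F)).1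
    rw [inv_inv] at this
    exact this
  obtain ⟨π', hπ'⟩ := hE.exists_perm_neg hG hB hU' hV'
  -- the conjugates of the negative root groups
  have hconj : ∀ (j : ℕ) (hj : j < D.rank) (y : GL D.Idx F), y ∈ D.rootSubgroup F (D.simple (star j)) ↔ n⁻¹ * y * n ∈ D.rootSubgroup F (D.neg (D.simple j)) := by
    intro j hj y
    have hr : D.neg (D.simple j) < D.nroots := hG.shp.neg_lt _ (hG.simple_lt hj)
    have hc := hm.conj ⟨_, hr⟩
    have hp : hG.permW w ⟨_, hr⟩ = ⟨D.simple (star j), hG.simple_lt (hLS.hst j hj).1⟩ := by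
      apply Fin.ext
      rw [hG.permW_val hLS.hw]
      exact (hLS.hst j hj).2.2
    rw [hp] at hc
    simp only at hc
    constructor
    · intro h
      obtain ⟨t, rfl⟩ := (hG.rootSubgroup_eq _ _).1 h
      have h2 := hm.d_ne ⟨_, hr⟩
      set d0 := (((actW C w (D.neg (D.simple j))).2 : ℤ) : F) with hd0
      have h3 := hc (d0⁻¹ * t)
      rw [← mul_assoc, mul_inv_cancel₀ h2, one_mul] at h3
      rw [← h3]
      have e : n⁻¹ * (n * hG.xG (D.neg (D.simple j)) (d0⁻¹ * t) * n⁻¹) * n = hG.xG (D.neg (D.simple j)) (d0⁻¹ * t) := by group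
      rw [e]
      exact hG.mem_rootSubgroup _ _
    · intro h
      obtain ⟨t, ht⟩ := (hG.rootSubgroup_eq _ _).1 h
      have e : y = n * (n⁻¹ * y * n) * n⁻¹ := by group
      rw [e, ht, hc]
      exact hG.mem_rootSubgroup _ _
  have hst : ∀ i : Fin D.rank, star i < D.rank := fun i => (hLS.hst i i.2).1
  have hstst : ∀ i : Fin D.rank, star (star i) = i := fun i => (hLS.hst i i.2).2.1
  let sE : Equiv.Perm (Fin D.rank) :=
    { toFun := fun i => ⟨star i, hst i⟩
      invFun := fun i => ⟨star i, hst i⟩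
      left_inv := fun i => Fin.ext (hstst i)
      right_inv := fun i => Fin.ext (hstst i) }
  refine ⟨sE.trans (π'.trans sE), fun i g => ?_⟩
  have hi' : (i : ℕ) = star (star i) := (hstst i).symm
  have h1 : (g : GL D.Idx F) ∈ D.rootSubgroup F (D.simple i) ↔ n⁻¹ * g * n ∈ D.rootSubgroup F (D.neg (D.simple (star i))) := by
    have := hconj (star i) (hst i) g
    rwa [← hi'] at this
  have h2 := hπ' ⟨star i, hst i⟩ (n0⁻¹ * g * n0)
  rw [hval', hθ'] at h2
  have e : n0 * (n0⁻¹ * g * n0) * n0⁻¹ = g := by group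
  rw [e, hval'] at h2
  have h3 := hconj (π' ⟨star i, hst i⟩) (π' ⟨star i, hst i⟩).2 (θ g)
  rw [h1, h2, ← h3]
  rfl

/-- Simple roots: the two permutations agree. -/
lemma Extra.not_comm_root {r : ℕ} (hr : r < D.nroots) (hrp : D.nroots / 2 ≤ r) {c c' : F} (hc : c ≠ 0) (hc' : c' ≠ 0) :
    hG.xG r c * hG.xG (D.neg r) c' ≠ hG.xG (D.neg r) c' * hG.xG r c := by
  intro h
  have R := hG.sl2 (F := F) hr
  have hρX : ∀ t, sl2Hom R (smX t) = hG.xG r t := fun t => sl2Hom_upper R _ t rfl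
  have hρY : ∀ t, sl2Hom R (smY t) = hG.xG (D.neg r) t := fun t => sl2Hom_lower R _ t rfl
  have h1 : sl2Hom R (smX c * smY c' * smX (-c) * smY (-c')) = 1 := by
    rw [map_mul, map_mul, map_mul, hρX, hρY, hρX, hρY, h, ← R.X_neg, ← R.Y_neg]
    group
  have h2 := hE.sl2_ker hG hr hrp _ h1
  have h3 : ((smX c * smY c' * smX (-c) * smY (-c') : Matrix.SpecialLinearGroup (Fin 2) F) : Matrix (Fin 2) (Fin 2) F) 1 0 = c * c' * c' := by
    show (!![1, c; 0, 1] * !![1, 0; c', 1] * !![1, -c; 0, 1] * !![1, 0; -c', 1]) 1 0 = _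
    simp [Matrix.mul_apply, Fin.sum_univ_two]
    ring
  have h4 : (smX c * smY c' * smX (-c) * smY (-c')) 1 0 = ((smX c * smY c' * smX (-c) * smY (-c') : Matrix.SpecialLinearGroup (Fin 2) F) : Matrix (Fin 2) (Fin 2) F) 1 0 := rfl
  rw [h4, h3] at h2
  exact mul_ne_zero (mul_ne_zero hc hc') hc' h2

/-- The two permutations of the fundamental root groups agree. -/
theorem Extra.perm_eq {θ : ↥(D.group F) ≃* ↥(D.group F)} {π π' : Equiv.Perm (Fin D.rank)}
    (hcomm : ∀ i j : Fin D.rank, i ≠ j → ∀ a b : F, Commute (hG.xG (D.simple i) a) (hG.xG (D.neg (D.simple j)) b))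
    (hπ : ∀ i : Fin D.rank, Prs θ (D.rootSubgroup F (D.simple i)) (D.rootSubgroup F (D.simple (π i))))
    (hπ' : ∀ i : Fin D.rank, Prs θ (D.rootSubgroup F (D.neg (D.simple i))) (D.rootSubgroup F (D.neg (D.simple (π' i))))) :
    π = π' := by
  ext i
  by_contra hne
  have hk : π'⁻¹ (π i) ≠ i := by
    intro h
    apply hne
    have h5 : π' (π'⁻¹ (π i)) = π i := by simp
    rw [h] at h5
    exact congrArg Fin.val h5.symm
  set k := π'⁻¹ (π i) with hk0
  have hπk : π' k = π i := by simp [hk0]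
  have hp := hG.simple_lt i.2
  have hn := hG.shp.neg_lt _ (hG.simple_lt k.2)
  let a : ↥(D.group F) := hG.xS hp 1
  let b : ↥(D.group F) := hG.xS hn 1
  have hab : a * b = b * a := Subtype.ext ((hcomm i k (Ne.symm hk) 1 1).eq)
  have hne1 : a ≠ 1 := by
    intro h
    have := (hE.xG_eq_one_iff hG hp).1 (congrArg Subtype.val h)
    exact one_ne_zero this
  have hnb1 : b ≠ 1 := by
    intro h
    have := (hE.xG_eq_one_iff hG hn).1 (congrArg Subtype.val h)
    exact one_ne_zero this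
  have ha := (hπ i a).1 (hG.mem_rootSubgroup _ _)
  have hb := (hπ' k b).1 (hG.mem_rootSubgroup _ _)
  rw [hπk] at hb
  obtain ⟨c, hc⟩ := (hG.rootSubgroup_eq _ _).1 ha
  obtain ⟨c', hc'⟩ := (hG.rootSubgroup_eq _ _).1 hb
  have hc0 : c ≠ 0 := by
    rintro rfl
    rw [hG.xG_zero] at hc
    exact hne1 (θ.injective (Subtype.ext (by rw [hc, map_one]; rfl)))
  have hc'0 : c' ≠ 0 := by
    rintro rfl
    rw [hG.xG_zero] at hc'
    exact hnb1 (θ.injective (Subtype.ext (by rw [hc', map_one]; rfl)))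
  have h2 : θ a * θ b = θ b * θ a := by rw [← map_mul, hab, map_mul]
  have h3 := congrArg Subtype.val h2
  simp only [Subgroup.coe_mul] at h3
  rw [hc, hc'] at h3
  have hq := hG.simple_lt (π i).2
  exact hE.not_comm_root hG hq (hE.simple_high hG (π i).2) hc0 hc'0 h3

end

end CfsgLib.Chev
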