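/-
Automorphisms: the data attached to an automorphism preserving `U` and `V`.
-/
import Cfsg.Agent.Lib.Chev.AutPerm

set_option autoImplicit false

namespace CfsgLib.Chev

open Cfsg.Lie Cfsg.Lie.ChevalleyDatum CfsgLib.BN

section

variable {D : ChevalleyDatum} {C : Cert} (hG : Good D C) {F : Type*} [Field F] (hE : Extra D C)

/-- The elements `h_r(t)` in the group. -/
noncomputable def Good.hS (hG : Good D C) {r : ℕ} (hr : r < D.nroots) (t : F) : ↥(D.group F) :=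
  ⟨hG.hhG r t, hG.hhG_mem_group hr t⟩

@[simp] lemma Good.hS_val {r : ℕ} (hr : r < D.nroots) (t : F) : ((hG.hS hr t : ↥(D.group F)) : GL D.Idx F) = hG.hhG r t := rfl

lemma Good.hS_eq {r : ℕ} (hr : r < D.nroots) (t : F) :
    hG.hS hr t = hh (hG.xS hr) (hG.xS (hG.shp.neg_lt r hr)) t := by
  apply Subtype.ext
  have e := hh_hom (D.group F).subtype (hG.xS hr) (hG.xS (hG.shp.neg_lt r hr)) t
  have e1 : (fun s => (D.group F).subtype (hG.xS hr s)) = hG.xG (F := F) r := rfl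
  have e2 : (fun s => (D.group F).subtype (hG.xS (hG.shp.neg_lt r hr) s)) = hG.xG (F := F) (D.neg r) := rfl
  rw [e1, e2] at e
  exact e.symm

lemma Good.sS_eq {i : ℕ} (hi : i < D.rank) :
    hG.sS F hi = nn (hG.xS (hG.simple_lt hi)) (hG.xS (hG.shp.neg_lt _ (hG.simple_lt hi))) 1 := by
  apply Subtype.ext
  rw [Good.sS]
  show hG.nG hi F = _
  rw [hG.nG_eq]
  have hr := hG.simple_lt hi
  have e := nn_hom (D.group F).subtype (hG.xS hr) (hG.xS (hG.shp.neg_lt _ hr)) (1 : F)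
  have e1 : (fun s => (D.group F).subtype (hG.xS hr s)) = hG.xG (F := F) (D.simple i) := rfl
  have e2 : (fun s => (D.group F).subtype (hG.xS (hG.shp.neg_lt _ hr) s)) = hG.xG (F := F) (D.neg (D.simple i)) := rfl
  rw [e1, e2] at e
  exact e.symm

omit hE in
lemma IsMono.pow {hG : Good D C} {g : GL D.Idx F} {π : Equiv.Perm (Fin D.nroots)} {d : Fin D.nroots → F} (h : IsMono hG g π d) (m : ℕ) :
    ∃ d', IsMono hG (g ^ m) (π ^ m) d' := by
  induction m with
  | zero =>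
    exact ⟨_, by simpa using IsMono.one hG⟩
  | succ m ih =>
    obtain ⟨d', hd'⟩ := ih
    exact ⟨_, by simpa [pow_succ] using hd'.mul h⟩

include hG hE

/-- The data of an automorphism preserving `U` and `V`. -/
theorem Extra.exists_adj (hB : Braid D C) [Finite F] {w : List ℕ} {star : ℕ → ℕ} (hLS : LongS D C w star)
    (hcomm : ∀ i j : Fin D.rank, i ≠ j → ∀ a b : F, Commute (hG.xG (D.simple i) a) (hG.xG (D.neg (D.simple j)) b))
    {θ : ↥(D.group F) ≃* ↥(D.group F)}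
    (hU : Prs θ (D.posUnipotent F) (D.posUnipotent F)) (hV : Prs θ (D.negUnipotent F) (D.negUnipotent F)) :
    ∃ (π : Equiv.Perm (Fin D.rank)) (a : Fin D.rank → F) (σ : Fin D.rank → F ≃+* F), (∀ i, a i ≠ 0) ∧
      (∀ i t, ((θ (hG.xS (hG.simple_lt i.2) t) : ↥(D.group F)) : GL D.Idx F) = hG.xG (D.simple (π i)) (a i * σ i t)) ∧
      (∀ i t, ((θ (hG.xS (hG.shp.neg_lt _ (hG.simple_lt i.2)) t) : ↥(D.group F)) : GL D.Idx F) = hG.xG (D.neg (D.simple (π i))) ((a i)⁻¹ * σ i t)) ∧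
      (∀ i t, t ≠ 0 → ((θ (hG.hS (hG.simple_lt i.2) t) : ↥(D.group F)) : GL D.Idx F) = hG.hhG (D.simple (π i)) (σ i t)) ∧
      (∀ i, ((θ (hG.sS F i.2) : ↥(D.group F)) : GL D.Idx F) = hG.hhG (D.simple (π i)) (a i) * hG.nG (π i).2 F) := by
  obtain ⟨π', hπ'⟩ := hE.exists_perm_pos hG hB hLS hU hV
  obtain ⟨π, hπ⟩ := hE.exists_perm_neg hG hB hU hV
  obtain rfl := hE.perm_eq hG hcomm hπ' hπ
  have key : ∀ i : Fin D.rank, ∃ (a : F) (σ : F ≃+* F), a ≠ 0 ∧
      (∀ t, ((θ (hG.xS (hG.simple_lt i.2) t) : ↥(D.group F)) : GL D.Idx F) = hG.xG (D.simple (π' i)) (a * σ t)) ∧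
      (∀ t, ((θ (hG.xS (hG.shp.neg_lt _ (hG.simple_lt i.2)) t) : ↥(D.group F)) : GL D.Idx F) = hG.xG (D.neg (D.simple (π' i))) (a⁻¹ * σ t)) ∧
      (∀ t, t ≠ 0 → ((θ (hG.hS (hG.simple_lt i.2) t) : ↥(D.group F)) : GL D.Idx F) = hG.hhG (D.simple (π' i)) (σ t)) ∧
      (((θ (hG.sS F i.2) : ↥(D.group F)) : GL D.Idx F) = hG.hhG (D.simple (π' i)) a * hG.nG (π' i).2 F) := by
    intro i
    have hp := hG.simple_lt i.2
    have hnp := hG.shp.neg_lt _ hp
    have hp' := hG.simple_lt (π' i).2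
    have hnp' := hG.shp.neg_lt _ hp'
    have hx : ∀ t : F, ∃ t' : F, ((θ (hG.xS hp t) : ↥(D.group F)) : GL D.Idx F) = hG.xG (D.simple (π' i)) t' := by
      intro t
      exact (hG.rootSubgroup_eq _ _).1 ((hπ' i _).1 (hG.mem_rootSubgroup _ t))
    have hy : ∀ t : F, ∃ t' : F, ((θ (hG.xS hnp t) : ↥(D.group F)) : GL D.Idx F) = hG.xG (D.neg (D.simple (π' i))) t' := by
      intro t
      exact (hG.rootSubgroup_eq _ _).1 ((hπ i _).1 (hG.mem_rootSubgroup _ t))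
    choose φ hφ using hx
    choose ψ hψ using hy
    have hinjS : ∀ {r : ℕ} (hr : r < D.nroots), Function.Injective (hG.xS (F := F) hr) := by
      intro r hr a b h
      exact hE.xG_inj hG hr (congrArg Subtype.val h)
    obtain ⟨a, ha, σ, h1, h2, h3, h4⟩ := rank1_of_aut (hG.sl2S (F := F) hp) (hG.sl2 (F := F) hp')
      (fun _ _ h => hE.xG_inj hG hp' h) (fun _ _ h => hE.xG_inj hG hnp' h) (hinjS hp) (hinjS hnp)
      (fun g hg => hE.sl2_ker hG hp' (hE.simple_high hG (π' i).2) g hg)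
      ((D.group F).subtype.comp θ.toMonoidHom)
      (fun x y h => θ.injective (Subtype.ext h)) φ ψ hφ hψ
    refine ⟨a, σ, ha, ?_, ?_, ?_, ?_⟩
    · intro t
      rw [hφ, h1]
    · intro t
      rw [hψ, h2]
    · intro t ht
      rw [hG.hS_eq]
      exact h3 t ht
    · rw [hG.sS_eq]
      have h5 := h4 1 one_ne_zero
      have h6 : ((θ (nn (hG.xS hp) (hG.xS hnp) 1) : ↥(D.group F)) : GL D.Idx F) = nn (hG.xG (D.simple (π' i))) (hG.xG (D.neg (D.simple (π' i)))) (a * σ 1) := h5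
      rw [h6, map_one, mul_one]
      have R := hG.sl2 (F := F) hp'
      rw [R.nn_eq a, hG.nG_eq (π' i).2]
      rfl
  choose a σ ha h1 h2 h3 h4 using key
  exact ⟨π', a, σ, ha, h1, h2, h3, h4⟩

omit hE in
/-- The relation between the field automorphisms of two nodes. -/
theorem Good.adj_star {θ : ↥(D.group F) ≃* ↥(D.group F)} {π : Equiv.Perm (Fin D.rank)} {a : Fin D.rank → F} {σ : Fin D.rank → F ≃+* F} (hE : Extra D C)
    (ha : ∀ i, a i ≠ 0)
    (h1 : ∀ i t, ((θ (hG.xS (hG.simple_lt i.2) t) : ↥(D.group F)) : GL D.Idx F) = hG.xG (D.simple (π i)) (a i * σ i t))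
    (h3 : ∀ i t, t ≠ 0 → ((θ (hG.hS (hG.simple_lt i.2) t) : ↥(D.group F)) : GL D.Idx F) = hG.hhG (D.simple (π i)) (σ i t))
    (i j : Fin D.rank) {c : F} (hc : c ≠ 0) :
    (σ i c) ^ (cartanA D (D.simple (π i)) (D.simple (π j))) = (σ j c) ^ (cartanA D (D.simple i) (D.simple j)) := by
  have hpi := hG.simple_lt i.2
  have hpj := hG.simple_lt j.2
  have hpi' := hG.simple_lt (π i).2
  have hpj' := hG.simple_lt (π j).2
  have e1 : hG.hS hpi c * hG.xS hpj (1 : F) * (hG.hS hpi c)⁻¹ = hG.xS hpj (c ^ (cartanA D (D.simple i) (D.simple j)) * 1) := by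
    apply Subtype.ext
    exact hG.hhG_conj_x hpi hpj hc 1
  have e2 := congrArg (fun z => ((θ z : ↥(D.group F)) : GL D.Idx F)) e1
  simp only [map_mul, map_inv, Subgroup.coe_mul, Subgroup.coe_inv] at e2
  rw [h3 i c hc, h1 j, h1 j] at e2
  have hσ : σ i c ≠ 0 := fun h => hc ((map_eq_zero (σ i)).1 h)
  rw [hG.hhG_conj_x hpi' hpj' hσ] at e2
  have e3 := hE.xG_inj hG hpj' e2
  simp only [map_mul, map_one, mul_one, map_zpow₀] at e3
  have e4 : (σ i c) ^ (cartanA D (D.simple (π i)) (D.simple (π j))) * a j = a j * (σ j c) ^ (cartanA D (D.simple i) (D.simple j)) := e3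
  rw [mul_comm] at e4
  exact mul_left_cancel₀ (ha j) e4

end

end CfsgLib.Chev
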