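/-
Automorphisms: the final assembly of Steinberg's theorem.
-/
import Cfsg.Agent.Lib.Chev.AutAdj
import Cfsg.Agent.Lib.Chev.Graph

set_option autoImplicit false

namespace CfsgLib.Chev

open Cfsg.Lie Cfsg.Lie.ChevalleyDatum CfsgLib.BN

section

variable {D : ChevalleyDatum} {C : Cert} (hG : Good D C) {F : Type*} [Field F] (hE : Extra D C)

include hG hE

/-- A monomial element with trivial permutation lies in `H`. -/
lemma Extra.mem_diagonal_of_mono (hB : Braid D C) {g : GL D.Idx F} (hg : g ∈ D.monomialSubgroup F) {d : Fin D.nroots → F}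
    (hm : IsMono hG g 1 d) : g ∈ D.diagonalSubgroup F := by
  rw [← hE.KK_eq hG hB]
  exact hG.mem_KK.2 ⟨hg, d, hm⟩

omit hE in
/-- The image of `H` under an automorphism with the data above is diagonal. -/
lemma Good.adj_diag {θ : ↥(D.group F) ≃* ↥(D.group F)} {π : Equiv.Perm (Fin D.rank)} {σ : Fin D.rank → F ≃+* F}
    (h3 : ∀ i t, t ≠ 0 → ((θ (hG.hS (hG.simple_lt i.2) t) : ↥(D.group F)) : GL D.Idx F) = hG.hhG (D.simple (π i)) (σ i t))
    (c : ℕ → F) (hc : ∀ i < D.rank, c i ≠ 0) (L : List ℕ) (hL : ∀ i ∈ L, i < D.rank)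
    (hmem : (L.map fun i => hG.hhG (D.simple i) (c i)).prod ∈ D.group F) :
    ∃ d, IsMono hG ((θ ⟨_, hmem⟩ : ↥(D.group F)) : GL D.Idx F) 1 d := by
  induction L with
  | nil =>
    have e : (⟨_, hmem⟩ : ↥(D.group F)) = 1 := Subtype.ext rfl
    rw [e, map_one]
    exact ⟨_, IsMono.one hG⟩
  | cons i L ih =>
    have hi := hL i (by simp)
    have hL' : ∀ j ∈ L, j < D.rank := fun j hj => hL j (by simp [hj])
    have hmem1 : (L.map fun i => hG.hhG (D.simple i) (c i)).prod ∈ D.group F := by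
      apply Subgroup.list_prod_mem
      intro x hx
      obtain ⟨j, hj, rfl⟩ := List.mem_map.1 hx
      exact hG.hhG_mem_group (hG.simple_lt (hL' j hj)) _
    have e : (⟨_, hmem⟩ : ↥(D.group F)) = hG.hS (hG.simple_lt hi) (c i) * ⟨_, hmem1⟩ := by
      apply Subtype.ext
      simp [Good.hS]
    rw [e, map_mul]
    obtain ⟨d, hd⟩ := ih hL' hmem1
    have h5 := h3 ⟨i, hi⟩ (c i) (hc i hi)
    have h6 := hG.isMono_hhG (hG.simple_lt (π ⟨i, hi⟩).2) (c := σ ⟨i, hi⟩ (c i)) (fun h => hc i hi ((map_eq_zero _).1 h))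
    rw [← h5] at h6
    have h7 := h6.mul hd
    rw [one_mul] at h7
    exact ⟨_, h7⟩

/-- The automorphism preserves the orders of the products of two reflections. -/
theorem Extra.adj_cox (hB : Braid D C) {θ : ↥(D.group F) ≃* ↥(D.group F)} {π : Equiv.Perm (Fin D.rank)} {a : Fin D.rank → F} {σ : Fin D.rank → F ≃+* F}
    (hO : ∀ i j : Fin D.rank, i ≠ j → orderOf (hG.piPerm i.2 * hG.piPerm j.2) = coxM C i j)
    (ha : ∀ i, a i ≠ 0)
    (h3 : ∀ i t, t ≠ 0 → ((θ (hG.hS (hG.simple_lt i.2) t) : ↥(D.group F)) : GL D.Idx F) = hG.hhG (D.simple (π i)) (σ i t))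
    (h4 : ∀ i, ((θ (hG.sS F i.2) : ↥(D.group F)) : GL D.Idx F) = hG.hhG (D.simple (π i)) (a i) * hG.nG (π i).2 F) :
    ∀ i j : Fin D.rank, coxM C (π i) (π j) = coxM C i j := by
  have hdvd : ∀ i j : Fin D.rank, coxM C (π i) (π j) ∣ coxM C i j := by
    intro i j
    by_cases hij : i = j
    · subst hij
      unfold coxM
      simp
    have hπij : π i ≠ π j := fun h => hij (π.injective h)
    set m := coxM C i j with hm
    have hperm : (hG.piPerm i.2 * hG.piPerm j.2) ^ m = 1 := by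
      rw [hm, ← hO i j hij]
      exact pow_orderOf_eq_one _
    obtain ⟨d, hd⟩ := ((hG.isMono_nG (F := F) i.2).mul (hG.isMono_nG (F := F) j.2)).pow m
    rw [hperm] at hd
    set z : ↥(D.group F) := (hG.sS F i.2 * hG.sS F j.2) ^ m with hz
    have hzval : (z : GL D.Idx F) = (hG.nG i.2 F * hG.nG j.2 F) ^ m := by
      rw [hz]
      rfl
    have hzN : (z : GL D.Idx F) ∈ D.monomialSubgroup F := by
      rw [hzval]
      exact Subgroup.pow_mem _ (Subgroup.mul_mem _ (hG.nG_mem_monomial i.2) (hG.nG_mem_monomial j.2)) _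
    rw [← hzval] at hd
    have hzH := hE.mem_diagonal_of_mono hG hB hzN hd
    obtain ⟨c, hc, hcE⟩ := hE.diagonal_prod hG hzH
    have hmem : ((List.range D.rank).map fun i => hG.hhG (D.simple i) (c i)).prod ∈ D.group F := by
      have : (z : GL D.Idx F) ∈ D.group F := z.2
      rw [hcE] at this
      exact this
    obtain ⟨d2, hd2⟩ := hG.adj_diag h3 c hc (List.range D.rank) (fun i hi => List.mem_range.1 hi) hmem
    have hze : z = ⟨_, hmem⟩ := Subtype.ext hcE
    rw [← hze] at hd2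
    -- the other description
    have hm1 := ((hG.isMono_hhG (hG.simple_lt (π i).2) (ha i)).mul (hG.isMono_nG (F := F) (π i).2))
    have hm2 := ((hG.isMono_hhG (hG.simple_lt (π j).2) (ha j)).mul (hG.isMono_nG (F := F) (π j).2))
    rw [one_mul, ← h4 i] at hm1
    rw [one_mul, ← h4 j] at hm2
    obtain ⟨d3, hd3⟩ := (hm1.mul hm2).pow m
    have e : ((θ z : ↥(D.group F)) : GL D.Idx F) = (((θ (hG.sS F i.2) : ↥(D.group F)) : GL D.Idx F) * ((θ (hG.sS F j.2) : ↥(D.group F)) : GL D.Idx F)) ^ m := by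
      rw [hz, map_pow, map_mul]
      rfl
    rw [← e] at hd3
    have h5 := hd3.perm_unique hd2
    have h6 := orderOf_dvd_of_pow_eq_one h5
    rwa [hO _ _ hπij] at h6
  have hpow : ∀ (n : ℕ) (i j : Fin D.rank), coxM C ((π ^ n) i) ((π ^ n) j) ∣ coxM C i j := by
    intro n
    induction n with
    | zero =>
      intro i j
      simp
    | succ n ih =>
      intro i j
      rw [pow_succ]
      exact (ih (π i) (π j)).trans (hdvd i j)
  intro i j
  apply Nat.dvd_antisymm (hdvd i j)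
  have hk : 0 < orderOf π := orderOf_pos π
  obtain ⟨k, hk2⟩ : ∃ k, orderOf π = k + 1 := ⟨orderOf π - 1, by omega⟩
  have h1 : π ^ (k + 1) = 1 := by
    rw [← hk2]
    exact pow_orderOf_eq_one π
  have h2 := hpow k (π i) (π j)
  have e1 : ∀ x, (π ^ k) (π x) = x := by
    intro x
    have : (π ^ (k + 1)) x = x := by rw [h1]; rfl
    rwa [pow_succ] at this
  rwa [e1, e1] at h2

/-- The diagonal automorphism attached to values on the fundamental roots. -/
theorem Extra.exists_diag_aut (hC : ChainStep D) (b : Fin D.rank → Fˣ) :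
    ∃ (χ : ℕ → Fˣ) (d : ↥(D.group F) ≃* ↥(D.group F)), D.IsRootCharacter χ ∧ (∀ i : Fin D.rank, χ (D.simple i) = b i) ∧ D.IsDiagonalAut d ∧
      ∀ (r : ℕ) (hr : r < D.nroots) (t : F), ((d (hG.xS hr t) : ↥(D.group F)) : GL D.Idx F) = hG.xG r ((χ r : F) * t) := by
  classical
  let χ : ℕ → Fˣ := fun r => ∏ j : Fin D.rank, (b j) ^ (C.coef r j)
  have hcoef : ∀ j : Fin D.rank, AddF D (fun r => C.coef r j) := by
    intro j
    have h := hG.addF_coef (fun k => if k = j then 1 else 0)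
    have e : (coefF C D.rank fun k => if k = (j : ℕ) then (1 : ℤ) else 0) = fun r => C.coef r j := by
      funext r
      unfold coefF
      rw [Finset.sum_eq_single j]
      · simp
      · intro k _ hk
        have : (k : ℕ) ≠ j := fun h2 => hk (Fin.ext h2)
        simp [this]
      · simp
    rwa [e] at h
  have hχ : D.IsRootCharacter χ := by
    constructor
    · intro r hr
      show ∏ j : Fin D.rank, (b j) ^ (C.coef (D.neg r) j) = (∏ j : Fin D.rank, (b j) ^ (C.coef r j))⁻¹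
      rw [← Finset.prod_inv_distrib]
      apply Finset.prod_congr rfl
      intro j _
      rw [(hcoef j).neg r hr, zpow_neg]
    · intro r s k hr hs hk
      show ∏ j : Fin D.rank, (b j) ^ (C.coef k j) = (∏ j : Fin D.rank, (b j) ^ (C.coef r j)) * (∏ j : Fin D.rank, (b j) ^ (C.coef s j))
      rw [← Finset.prod_mul_distrib]
      apply Finset.prod_congr rfl
      intro j _
      unfold ChevalleyDatum.chainRoot at hk
      simp only [Nat.add_one_sub_one, Option.map_eq_some_iff] at hk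
      obtain ⟨e, he, rfl⟩ := hk
      have := (hcoef j).chain r hr s hs 0 e he
      rw [this, ← zpow_add]
      congr 1
      simp only [Nat.cast_zero, zero_add, one_mul]
      ring
  have hχs : ∀ i : Fin D.rank, χ (D.simple i) = b i := by
    intro i
    show ∏ j : Fin D.rank, (b j) ^ (C.coef (D.simple i) j) = b i
    rw [Finset.prod_eq_single i]
    · rw [hE.coef_simple_self hG i.2, zpow_one]
    · intro j _ hj
      have : (i : ℕ) ≠ j := fun h2 => hj (Fin.ext h2.symm)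
      rw [hE.coef_simple_ne hG i.2 j.2 this, zpow_zero]
    · simp
  let u : GL D.Idx F := ⟨D.charDiag F χ, D.charDiag F (fun s => (χ s)⁻¹), charDiag_mul_inv χ, by
    have := charDiag_mul_inv (D := D) (F := F) (fun s => (χ s)⁻¹)
    simpa using this⟩
  have hconj : ∀ (r : ℕ) (hr : r < D.nroots) (t : F), u * hG.xG r t * u⁻¹ = hG.xG r ((χ r : F) * t) := by
    intro r hr t
    apply Units.ext
    show D.charDiag F χ * (hG.xG r t : Matrix D.Idx D.Idx F) * D.charDiag F (fun s => (χ s)⁻¹) = _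
    rw [hG.xG_val, hG.xG_val]
    exact hG.charDiag_conj hC hχ hr t
  have hconj' : ∀ (r : ℕ) (hr : r < D.nroots) (t : F), u⁻¹ * hG.xG r t * u = hG.xG r (((χ r)⁻¹ : Fˣ) * t) := by
    intro r hr t
    have h := hconj r hr (((χ r)⁻¹ : Fˣ) * t)
    have e : (χ r : F) * (((χ r)⁻¹ : Fˣ) * t) = t := by
      rw [← mul_assoc, ← Units.val_mul, mul_inv_cancel, Units.val_one, one_mul]
    rw [e] at h
    rw [← h]
    group
  have h1 : ∀ g ∈ D.group F, u * g * u⁻¹ ∈ D.group F := by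
    have hle : D.group F ≤ (D.group F).comap (MulAut.conj u).toMonoidHom := by
      apply hG.group_le
      intro r hr t
      show u * hG.xG r t * u⁻¹ ∈ D.group F
      rw [hconj r hr]
      exact hG.mem_group hr _
    exact fun g hg => hle hg
  have h2 : ∀ g ∈ D.group F, u⁻¹ * g * u ∈ D.group F := by
    have hle : D.group F ≤ (D.group F).comap (MulAut.conj u⁻¹).toMonoidHom := by
      apply hG.group_le
      intro r hr t
      show u⁻¹ * hG.xG r t * u⁻¹⁻¹ ∈ D.group F
      rw [inv_inv, hconj' r hr]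
      exact hG.mem_group hr _
    exact fun g hg => hle hg
  refine ⟨χ, conjAut (D.group F) u h1 h2, hχ, hχs, ⟨χ, hχ, fun g => rfl⟩, fun r hr t => ?_⟩
  exact hconj r hr t

/-- Steinberg's theorem, given the existence of the graph automorphisms. -/
theorem Extra.steinberg_of_input (hB : Braid D C) (hL : HasLong D C) {w : List ℕ} {star : ℕ → ℕ} (hLS : LongS D C w star)
    (hcomm : ∀ i j : Fin D.rank, i ≠ j → ∀ a b : F, Commute (hG.xG (D.simple i) a) (hG.xG (D.neg (D.simple j)) b))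
    (hO : ∀ i j : Fin D.rank, i ≠ j → orderOf (hG.piPerm i.2 * hG.piPerm j.2) = coxM C i j)
    (hC : ChainStep D) [Finite F]
    (hinput : ∀ (θ₁ : ↥(D.group F) ≃* ↥(D.group F)) (π : Equiv.Perm (Fin D.rank)) (a : Fin D.rank → F) (σ : Fin D.rank → F ≃+* F), (∀ i, a i ≠ 0) →
      (∀ i t, ((θ₁ (hG.xS (hG.simple_lt i.2) t) : ↥(D.group F)) : GL D.Idx F) = hG.xG (D.simple (π i)) (a i * σ i t)) →
      (∀ i t, ((θ₁ (hG.xS (hG.shp.neg_lt _ (hG.simple_lt i.2)) t) : ↥(D.group F)) : GL D.Idx F) = hG.xG (D.neg (D.simple (π i))) ((a i)⁻¹ * σ i t)) →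
      (∀ i j : Fin D.rank, coxM C (π i) (π j) = coxM C i j) →
      (∀ (i j : Fin D.rank) (c : F), c ≠ 0 → (σ i c) ^ (cartanA D (D.simple (π i)) (D.simple (π j))) = (σ j c) ^ (cartanA D (D.simple i) (D.simple j))) →
      ∃ (g : ↥(D.group F) ≃* ↥(D.group F)) (τ : F ≃+* F),
        (D.IsDiagramSymmetry π ∧ ∀ (x : ↥(D.group F)) (i : Fin D.rank) (t : F),
          (((x : GL D.Idx F) : Matrix D.Idx D.Idx F) = D.x F (D.simple i) t →
            ((g x : GL D.Idx F) : Matrix D.Idx D.Idx F) = D.x F (D.simple (π i)) (t ^ D.graphExp (ringChar F) i (π i))) ∧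
          (((x : GL D.Idx F) : Matrix D.Idx D.Idx F) = D.x F (D.neg (D.simple i)) t →
            ((g x : GL D.Idx F) : Matrix D.Idx D.Idx F) = D.x F (D.neg (D.simple (π i))) (t ^ D.graphExp (ringChar F) i (π i)))) ∧
        ∀ i t, σ i t = (τ t) ^ D.graphExp (ringChar F) i (π i))
    (θ : ↥(D.group F) ≃* ↥(D.group F)) :
    ∃ (x : ↥(D.group F)) (d g f : ↥(D.group F) ≃* ↥(D.group F)),
      D.IsDiagonalAut d ∧ D.IsGraphAut g ∧ D.IsFieldAut f ∧ ∀ y : ↥(D.group F), θ y = x * d (g (f y)) * x⁻¹ := by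
  obtain ⟨x, θ₁, hx, hU, hV⟩ := hE.exists_normalize hG hB hL θ
  obtain ⟨π, a, σ, ha, h1, h2, h3, h4⟩ := hE.exists_adj hG hB hLS hcomm hU hV
  have hcox := hE.adj_cox hG hB hO ha h3 h4
  have hstar : ∀ (i j : Fin D.rank) (c : F), c ≠ 0 → (σ i c) ^ (cartanA D (D.simple (π i)) (D.simple (π j))) = (σ j c) ^ (cartanA D (D.simple i) (D.simple j)) :=
    fun i j c hc => hG.adj_star hE ha h1 h3 i j hc
  obtain ⟨g, τ, hg, hτ⟩ := hinput θ₁ π a σ ha h1 h2 hcox hstar
  obtain ⟨f, hf⟩ := hG.field_aut τ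
  obtain ⟨χ, d, hχ, hχs, hd, hdv⟩ := hE.exists_diag_aut hG hC (fun i => Units.mk0 (a (π⁻¹ i)) (ha _))
  have hχa : ∀ i : Fin D.rank, (χ (D.simple (π i)) : F) = a i := by
    intro i
    rw [hχs (π i)]
    simp
  refine ⟨x, d, g, f, hd, ⟨π, hg⟩, ⟨τ, hf⟩, fun y => ?_⟩
  rw [hx y]
  congr 2
  -- equality on the generators
  let E : Subgroup ↥(D.group F) := θ₁.toMonoidHom.eqLocus ((d.toMonoidHom.comp g.toMonoidHom).comp f.toMonoidHom)
  have hmem : ∀ {r : ℕ} (hr : r < D.nroots) (t : F), hG.xS hr t ∈ E → hG.xG r t ∈ E.map (D.group F).subtype :=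
    fun _ _ h => ⟨_, h, rfl⟩
  have hsub : D.group F ≤ E.map (D.group F).subtype := by
    apply hE.group_le_fund hG
    · intro i hi t
      have hr := hG.simple_lt hi
      apply hmem hr
      show θ₁ _ = d (g (f _))
      have hi' := hG.simple_lt (π ⟨i, hi⟩).2
      have e1 := hf (hG.xS hr t) _ t hr (hG.xG_val _ _)
      have e2 := (hg.2 (f (hG.xS hr t)) ⟨i, hi⟩ (τ t)).1 e1
      have e3 : g (f (hG.xS hr t)) = hG.xS hi' ((τ t) ^ D.graphExp (ringChar F) i (π ⟨i, hi⟩)) := by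
        apply Subtype.ext
        exact (hG.eq_xG_iff _ _ _).1 e2
      rw [e3]
      apply Subtype.ext
      rw [h1 ⟨i, hi⟩ t, hdv, hχa ⟨i, hi⟩, hτ]
    · intro i hi t
      have hr := hG.shp.neg_lt _ (hG.simple_lt hi)
      apply hmem hr
      show θ₁ _ = d (g (f _))
      have hi' := hG.shp.neg_lt _ (hG.simple_lt (π ⟨i, hi⟩).2)
      have e1 := hf (hG.xS hr t) _ t hr (hG.xG_val _ _)
      have e2 := (hg.2 (f (hG.xS hr t)) ⟨i, hi⟩ (τ t)).2 e1
      have e3 : g (f (hG.xS hr t)) = hG.xS hi' ((τ t) ^ D.graphExp (ringChar F) i (π ⟨i, hi⟩)) := by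
        apply Subtype.ext
        exact (hG.eq_xG_iff _ _ _).1 e2
      rw [e3]
      apply Subtype.ext
      have hχn : (χ (D.neg (D.simple (π ⟨i, hi⟩))) : F) = (a ⟨i, hi⟩)⁻¹ := by
        rw [hχ.1 _ (hG.simple_lt (π ⟨i, hi⟩).2), Units.val_inv_eq_inv_val, hχa]
      rw [h2 ⟨i, hi⟩ t, hdv, hχn, hτ]
  obtain ⟨z, hz, e⟩ := hsub y.2
  have e' : z = y := Subtype.ext e
  rw [← e']
  exact hz

end

end CfsgLib.Chev
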