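/-
Automorphisms: the graph automorphisms of each type.
-/
import Cfsg.Agent.Lib.Chev.AutFinal
import Cfsg.Agent.Lib.Chev.AllG
import Cfsg.Agent.Lib.Chev.AllGF
import Cfsg.Agent.Lib.Chev.AllT
import Cfsg.Agent.Lib.Chev.AllL
import Cfsg.Agent.Lib.Chev.AllB
import Cfsg.Agent.Lib.Chev.AllP
import Cfsg.Agent.Lib.Chev.AllSt
import Cfsg.Agent.Lib.Chev.FieldFix

set_option autoImplicit false

namespace CfsgLib.Chev

open Cfsg.Lie Cfsg.Lie.ChevalleyDatum CfsgLib.BN

/-- The permutations of the nodes preserving the Coxeter numbers, by backtracking. -/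
def permSols (C : Cert) (n : ℕ) : ℕ → List (List ℕ)
  | 0 => [[]]
  | k + 1 => (permSols C n k).flatMap fun L => (List.range n).filterMap fun v =>
      if (!L.contains v) && ((List.range L.length).all fun j => Nat.beq (coxM C v (L.getD j 0)) (coxM C L.length j)) then some (L ++ [v]) else none

lemma mem_permSols (C : Cert) (n : ℕ) (π : Equiv.Perm (Fin n)) (hπ : ∀ i j : Fin n, coxM C (π i) (π j) = coxM C i j) :
    ∀ k, k ≤ n → (List.range k).map (fun j => if h : j < n then ((π ⟨j, h⟩ : Fin n) : ℕ) else 0) ∈ permSols C n k := by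
  intro k
  induction k with
  | zero =>
    intro _
    simp [permSols]
  | succ k ih =>
    intro hk
    have hk' : k < n := hk
    set p : ℕ → ℕ := fun j => if h : j < n then ((π ⟨j, h⟩ : Fin n) : ℕ) else 0 with hp
    have hpv : ∀ j (h : j < n), p j = π ⟨j, h⟩ := by
      intro j h
      simp [hp, h]
    rw [List.range_succ, List.map_append, permSols, List.mem_flatMap]
    refine ⟨_, ih (by omega), ?_⟩
    rw [List.mem_filterMap]
    refine ⟨p k, List.mem_range.2 (by rw [hpv k hk']; exact (π _).2), ?_⟩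
    have hlen : ((List.range k).map p).length = k := by simp
    have hcond : ((!((List.range k).map p).contains (p k)) && ((List.range ((List.range k).map p).length).all fun j =>
        Nat.beq (coxM C (p k) (((List.range k).map p).getD j 0)) (coxM C ((List.range k).map p).length j))) = true := by
      rw [hlen, Bool.and_eq_true]
      constructor
      · rw [Bool.not_eq_true', Bool.eq_false_iff]
        intro h
        rw [List.contains_iff_mem, List.mem_map] at h
        obtain ⟨j, hj, e⟩ := h
        have hj' := List.mem_range.1 hj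
        rw [hpv j (by omega), hpv k hk'] at e
        have := π.injective (Fin.ext e)
        simp only [Fin.mk.injEq] at this
        omega
      · rw [List.all_eq_true]
        intro j hj
        have hj' := List.mem_range.1 hj
        have e : ((List.range k).map p).getD j 0 = p j := by
          rw [List.getD_eq_getElem _ _ (by simpa using hj')]
          simp
        rw [e, hpv j (by omega), hpv k hk']
        have := hπ ⟨k, hk'⟩ ⟨j, by omega⟩
        simp only at this
        rw [this]
        exact Nat.beq_refl _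
    rw [if_pos hcond]
    simp

/-- A node permutation preserving the Coxeter numbers is in the list. -/
lemma exists_mem_permSols {C : Cert} {n : ℕ} {Ls : List (List ℕ)} (hs : permSols C n n = Ls) (π : Equiv.Perm (Fin n))
    (hπ : ∀ i j : Fin n, coxM C (π i) (π j) = coxM C i j) : ∃ L ∈ Ls, ∀ i : Fin n, ((π i : Fin n) : ℕ) = L.getD i 0 := by
  refine ⟨_, hs ▸ mem_permSols C n π hπ n (le_refl n), fun i => ?_⟩
  rw [List.getD_eq_getElem _ _ (by simp)]
  simp

/-- The check of commuting fundamental roots. -/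
def simpleCommChk (D : ChevalleyDatum) : Bool :=
  (List.range D.rank).all fun i => (List.range D.rank).all fun j => Nat.beq i j || commOK D ((0 : ℕ) : ℤ) (D.simple i) (D.neg (D.simple j))

/-- The check of orders of products of two reflections. -/
def orderChk (D : ChevalleyDatum) (C : Cert) : Bool :=
  (List.range D.rank).all fun i => (List.range D.rank).all fun j => Nat.beq i j || coxChk C [i, j] (coxM C i j) (D.simple i)

section

variable {D : ChevalleyDatum} {C : Cert} (hG : Good D C) {F : Type*} [Field F] (hE : Extra D C)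

include hG in
lemma Good.simple_comm (h : simpleCommChk D = true) (i j : Fin D.rank) (hij : i ≠ j) (a b : F) :
    Commute (hG.xG (D.simple i) a) (hG.xG (D.neg (D.simple j)) b) := by
  simp only [simpleCommChk, List.all_eq_true, List.mem_range, Bool.or_eq_true] at h
  rcases h i i.2 j j.2 with h1 | h1
  · exact absurd (Fin.ext (Nat.eq_of_beq_eq_true h1)) hij
  · exact hG.xG_commute_of_ok (p := 0) Nat.cast_zero (hG.simple_lt i.2) (hG.shp.neg_lt _ (hG.simple_lt j.2)) h1 a b

include hG in
lemma Good.order_cox (h : orderChk D C = true) (i j : Fin D.rank) (hij : i ≠ j) :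
    orderOf (hG.piPerm i.2 * hG.piPerm j.2) = coxM C i j := by
  simp only [orderChk, List.all_eq_true, List.mem_range, Bool.or_eq_true] at h
  rcases h i i.2 j j.2 with h1 | h1
  · exact absurd (Fin.ext (Nat.eq_of_beq_eq_true h1)) hij
  · have hL : ∀ k ∈ [(i : ℕ), (j : ℕ)], k < D.rank := by
      intro k hk
      simp only [List.mem_cons, List.not_mem_nil, or_false] at hk
      rcases hk with rfl | rfl
      · exact i.2
      · exact j.2
    have h2 := hG.orderOf_of_check hL h1
    have e : hG.permW [(i : ℕ), (j : ℕ)] = hG.piPerm i.2 * hG.piPerm j.2 := by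
      simp [Good.permW, hG.piP_of_lt i.2, hG.piP_of_lt j.2]
    rwa [e] at h2

end

/-- The group automorphism attached to a node permutation, without exponents. -/
def HasGraph1 (D : ChevalleyDatum) (F : Type*) [Field F] (ρ : ℕ → ℕ) : Prop :=
  ∃ α : ↥(D.group F) ≃* ↥(D.group F), ∀ (g : ↥(D.group F)) (i : ℕ) (t : F), i < D.rank →
    (((g : GL D.Idx F) : Matrix D.Idx D.Idx F) = D.x F (D.simple i) t →
      ((α g : GL D.Idx F) : Matrix D.Idx D.Idx F) = D.x F (D.simple (ρ i)) t) ∧
    (((g : GL D.Idx F) : Matrix D.Idx D.Idx F) = D.x F (D.neg (D.simple i)) t →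
      ((α g : GL D.Idx F) : Matrix D.Idx D.Idx F) = D.x F (D.neg (D.simple (ρ i))) t)

lemma HasGraph1.id (D : ChevalleyDatum) (F : Type*) [Field F] : HasGraph1 D F (fun i => i) :=
  ⟨MulEquiv.refl _, fun _ _ _ _ => ⟨fun e => e, fun e => e⟩⟩

lemma HasGraph1.comp {D : ChevalleyDatum} {F : Type*} [Field F] {ρ₁ ρ₂ : ℕ → ℕ} (h₁ : HasGraph1 D F ρ₁) (h₂ : HasGraph1 D F ρ₂) (h : ∀ i < D.rank, ρ₁ i < D.rank) :
    HasGraph1 D F (fun i => ρ₂ (ρ₁ i)) := by
  obtain ⟨α₁, hα₁⟩ := h₁
  obtain ⟨α₂, hα₂⟩ := h₂
  refine ⟨α₁.trans α₂, fun g i t hi => ⟨fun e => ?_, fun e => ?_⟩⟩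
  · exact (hα₂ (α₁ g) (ρ₁ i) t (h i hi)).1 ((hα₁ g i t hi).1 e)
  · exact (hα₂ (α₁ g) (ρ₁ i) t (h i hi)).2 ((hα₁ g i t hi).2 e)

lemma HasGraph1.congr {D : ChevalleyDatum} {F : Type*} [Field F] {ρ₁ ρ₂ : ℕ → ℕ} (h₁ : HasGraph1 D F ρ₁) (h : ∀ i < D.rank, ρ₁ i = ρ₂ i) :
    HasGraph1 D F ρ₂ := by
  obtain ⟨α₁, hα₁⟩ := h₁
  refine ⟨α₁, fun g i t hi => ?_⟩
  rw [← h i hi]
  exact hα₁ g i t hi

/-- The check of a permutation of the nodes preserving the Cartan matrix and the root lengths. -/
def noSwapChk (D : ChevalleyDatum) (L : List ℕ) : Bool :=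
  (List.range D.rank).all fun i => (D.isLong (D.simple (L.getD i 0)) == D.isLong (D.simple i)) &&
    (List.range D.rank).all fun j => decide (cartanA D (D.simple (L.getD i 0)) (D.simple (L.getD j 0)) = cartanA D (D.simple i) (D.simple j)) &&
      (Nat.beq i j || decide (D.bonds (L.getD i 0) (L.getD j 0) = D.bonds i j))

/-- The check of adjacency in the diagram. -/
def adjChk (D : ChevalleyDatum) (C : Cert) : Bool :=
  Nat.blt 0 D.rank && (List.range D.rank).all fun i => (List.range D.rank).all fun j => Nat.beq (coxM C i j) 2 || Nat.beq i j ||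
    decide (cartanA D (D.simple i) (D.simple j) = -1) || decide (cartanA D (D.simple j) (D.simple i) = -1)

section

variable {F : Type*} [Field F]

lemma ringEquiv_eq_of_inv (u v : F ≃+* F) (h : ∀ c : F, c ≠ 0 → (u c) ^ (-1 : ℤ) = (v c) ^ (-1 : ℤ)) : u = v := by
  ext c
  by_cases hc : c = 0
  · rw [hc, map_zero, map_zero]
  · have := h c hc
    rw [zpow_neg_one, zpow_neg_one] at this
    exact inv_injective this

lemma ringEquiv_pow_of_inv (u v : F ≃+* F) (m : ℕ) (hm : m ≠ 0) (h : ∀ c : F, c ≠ 0 → (u c) ^ (-1 : ℤ) = (v c) ^ (-(m : ℤ))) (c : F) : u c = (v c) ^ m := by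
  by_cases hc : c = 0
  · rw [hc, map_zero, map_zero, zero_pow hm]
  · have := h c hc
    rw [zpow_neg_one, zpow_neg, zpow_natCast] at this
    exact inv_injective this

end

section

variable {D : ChevalleyDatum} {C : Cert} (hG : Good D C) {F : Type*} [Field F]

include hG

/-- The case of a permutation preserving the Cartan matrix. -/
theorem Good.input_noswap (hconn : Conn D C) {L : List ℕ} (hadj : adjChk D C = true) (hchk : noSwapChk D L = true)
    (hg : HasGraph1 D F (fun i => L.getD i 0)) {π : Equiv.Perm (Fin D.rank)} (hπ : ∀ i : Fin D.rank, ((π i : Fin D.rank) : ℕ) = L.getD i 0)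
    {σ : Fin D.rank → F ≃+* F}
    (hstar : ∀ (i j : Fin D.rank) (c : F), c ≠ 0 → (σ i c) ^ (cartanA D (D.simple (π i)) (D.simple (π j))) = (σ j c) ^ (cartanA D (D.simple i) (D.simple j))) :
    ∃ (g : ↥(D.group F) ≃* ↥(D.group F)) (τ : F ≃+* F),
      (D.IsDiagramSymmetry π ∧ ∀ (x : ↥(D.group F)) (i : Fin D.rank) (t : F),
        (((x : GL D.Idx F) : Matrix D.Idx D.Idx F) = D.x F (D.simple i) t →
          ((g x : GL D.Idx F) : Matrix D.Idx D.Idx F) = D.x F (D.simple (π i)) (t ^ D.graphExp (ringChar F) i (π i))) ∧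
        (((x : GL D.Idx F) : Matrix D.Idx D.Idx F) = D.x F (D.neg (D.simple i)) t →
          ((g x : GL D.Idx F) : Matrix D.Idx D.Idx F) = D.x F (D.neg (D.simple (π i))) (t ^ D.graphExp (ringChar F) i (π i)))) ∧
      ∀ i t, σ i t = (τ t) ^ D.graphExp (ringChar F) i (π i) := by
  simp only [noSwapChk, adjChk, List.all_eq_true, List.mem_range, Bool.and_eq_true, Bool.or_eq_true, decide_eq_true_eq, beq_iff_eq] at hchk hadj
  obtain ⟨hrank, hadj⟩ := hadj
  have hrank' : 0 < D.rank := Nat.le_of_ble_eq_true hrank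
  have hlong : ∀ i : Fin D.rank, D.isLong (D.simple (π i)) = D.isLong (D.simple i) := by
    intro i
    rw [hπ i]
    exact (hchk i i.2).1
  have hexp : ∀ (c : ℕ) (i : Fin D.rank), D.graphExp c i (π i) = 1 := by
    intro c i
    unfold ChevalleyDatum.graphExp
    rw [hlong i]
    simp
  have hA : ∀ i j : Fin D.rank, cartanA D (D.simple (π i)) (D.simple (π j)) = cartanA D (D.simple i) (D.simple j) := by
    intro i j
    rw [hπ i, hπ j]
    exact ((hchk i i.2).2 j j.2).1
  have hbonds : D.IsDiagramSymmetry π := by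
    intro i j hij
    rw [hπ i, hπ j]
    rcases ((hchk i i.2).2 j j.2).2 with h | h
    · exact absurd (Fin.ext (Nat.eq_of_beq_eq_true h)) hij
    · exact h
  let i0 : Fin D.rank := ⟨0, hrank'⟩
  have hstep : ∀ x y : Fin D.rank, cartanA D (D.simple x) (D.simple y) = -1 → σ x = σ y := by
    intro x y h
    apply ringEquiv_eq_of_inv
    intro c hc
    have := hstar x y c hc
    rw [hA, h] at this
    exact this
  have hall : ∀ x (hx : x < D.rank), σ ⟨x, hx⟩ = σ i0 := by
    let Q : ℕ → Prop := fun x => ∀ hx : x < D.rank, σ ⟨x, hx⟩ = σ i0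
    have hQ := hconn.conn Q (by
      intro x hx y hy hne
      have heq : σ ⟨x, hx⟩ = σ ⟨y, hy⟩ := by
        rcases hadj x hx y hy with ((h | h) | h) | h
        · exact absurd (Nat.eq_of_beq_eq_true h) hne
        · have := Nat.eq_of_beq_eq_true h
          subst this
          rfl
        · exact hstep ⟨x, hx⟩ ⟨y, hy⟩ h
        · exact (hstep ⟨y, hy⟩ ⟨x, hx⟩ h).symm
      constructor
      · intro h _
        rw [← heq]
        exact h hx
      · intro h _
        rw [heq]
        exact h hy)
    intro x hx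
    exact (hQ 0 hrank' x hx).1 (fun _ => rfl) hx
  obtain ⟨α, hα⟩ := hg
  refine ⟨α, σ i0, ⟨hbonds, fun x i t => ?_⟩, fun i t => ?_⟩
  · rw [hexp, pow_one, hπ i]
    exact hα x i t i.2
  · rw [hexp, pow_one]
    have := hall i i.2
    rw [show (⟨(i : ℕ), i.2⟩ : Fin D.rank) = i from rfl] at this
    rw [this]

end

end CfsgLib.Chev
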