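/-
Steinberg's theorem on the automorphisms of the Chevalley groups.
-/
import Cfsg.Agent.Lib.Chev.AutTypes

set_option autoImplicit false

namespace CfsgLib.Chev

open Cfsg.Lie Cfsg.Lie.ChevalleyDatum CfsgLib.BN

/-- The check of a longest word. -/
def longSChk (D : ChevalleyDatum) (C : Cert) (w star : List ℕ) : Bool :=
  (w.all fun i => Nat.blt i D.rank) &&
    ((List.range D.nroots).all fun r => Nat.blt r (D.nroots / 2) || Nat.blt (actW C w r).1 (D.nroots / 2)) &&
    ((List.range D.rank).all fun j => Nat.blt (star.getD j 0) D.rank && Nat.beq (star.getD (star.getD j 0) 0) j &&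
      Nat.beq (actW C w (D.neg (D.simple j))).1 (D.simple (star.getD j 0)))

theorem LongS.of_chk {D : ChevalleyDatum} {C : Cert} {w star : List ℕ} (h : longSChk D C w star = true) :
    LongS D C w (fun j => star.getD j 0) := by
  simp only [longSChk, Bool.and_eq_true, List.all_eq_true, List.mem_range, Bool.or_eq_true] at h
  obtain ⟨⟨h1, h2⟩, h3⟩ := h
  refine ⟨fun i hi => Nat.le_of_ble_eq_true (h1 i hi), ?_, ?_⟩
  · intro r hr hr2
    rcases h2 r hr with h | h
    · have := Nat.le_of_ble_eq_true h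
      omega
    · exact Nat.le_of_ble_eq_true h
  · intro j hj
    obtain ⟨⟨h4, h5⟩, h6⟩ := h3 j hj
    exact ⟨Nat.le_of_ble_eq_true h4, Nat.eq_of_beq_eq_true h5, Nat.eq_of_beq_eq_true h6⟩

section

variable {D : ChevalleyDatum} {C : Cert} (hG : Good D C) {F : Type*} [Field F] (hE : Extra D C)

include hG hE

/-- Steinberg's theorem from a list of node permutations. -/
theorem Extra.steinberg_cases (hB : Braid D C) (hL : HasLong D C) {w : List ℕ} {star : ℕ → ℕ} (hLS : LongS D C w star)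
    (hcc : simpleCommChk D = true) (ho : orderChk D C = true) (hC : ChainStep D) [Finite F] {Ls : List (List ℕ)}
    (hs : permSols C D.rank D.rank = Ls)
    (hcase : ∀ L ∈ Ls, ∀ (θ₁ : ↥(D.group F) ≃* ↥(D.group F)) (π : Equiv.Perm (Fin D.rank)) (a : Fin D.rank → F) (σ : Fin D.rank → F ≃+* F), (∀ i, a i ≠ 0) →
      (∀ i t, ((θ₁ (hG.xS (hG.simple_lt i.2) t) : ↥(D.group F)) : GL D.Idx F) = hG.xG (D.simple (π i)) (a i * σ i t)) →
      (∀ i t, ((θ₁ (hG.xS (hG.shp.neg_lt _ (hG.simple_lt i.2)) t) : ↥(D.group F)) : GL D.Idx F) = hG.xG (D.neg (D.simple (π i))) ((a i)⁻¹ * σ i t)) →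
      (∀ i : Fin D.rank, ((π i : Fin D.rank) : ℕ) = L.getD i 0) →
      (∀ (i j : Fin D.rank) (c : F), c ≠ 0 → (σ i c) ^ (cartanA D (D.simple (π i)) (D.simple (π j))) = (σ j c) ^ (cartanA D (D.simple i) (D.simple j))) →
      ∃ (g : ↥(D.group F) ≃* ↥(D.group F)) (τ : F ≃+* F),
        (D.IsDiagramSymmetry π ∧ ∀ (x : ↥(D.group F)) (i : Fin D.rank) (t : F),
          (((x : GL D.Idx F) : Matrix D.Idx D.Idx F) = D.x F (D.simple i) t →
            ((g x : GL D.Idx F) : Matrix D.Idx D.Idx F) = D.x F (D.simple (π i)) (t ^ D.graphExp (ringChar F) i (π i))) ∧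
          (((x : GL D.Idx F) : Matrix D.Idx D.Idx F) = D.x F (D.neg (D.simple i)) t →
            ((g x : GL D.Idx F) : Matrix D.Idx D.Idx F) = D.x F (D.neg (D.simple (π i))) (t ^ D.graphExp (ringChar F) i (π i)))) ∧
        ∀ i t, σ i t = (τ t) ^ D.graphExp (ringChar F) i (π i))
    (θ : ↥(D.group F) ≃* ↥(D.group F)) :
    ∃ (x : ↥(D.group F)) (d g f : ↥(D.group F) ≃* ↥(D.group F)),
      D.IsDiagonalAut d ∧ D.IsGraphAut g ∧ D.IsFieldAut f ∧ ∀ y : ↥(D.group F), θ y = x * d (g (f y)) * x⁻¹ := by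
  refine hE.steinberg_of_input hG hB hL hLS (hG.simple_comm hcc) (hG.order_cox ho) hC ?_ θ
  intro θ₁ π a σ ha h1 h2 hcox hstar
  obtain ⟨L, hL', hπ⟩ := exists_mem_permSols hs π hcox
  exact hcase L hL' θ₁ π a σ ha h1 h2 hπ hstar

omit hE in
/-- The case of a permutation exchanging the root lengths. -/
theorem Good.input_swap (hE : Extra D C) {p : ℕ} [Fact p.Prime] [CharP F p] [Finite F] {T : GF} {P : List (ℕ × ℕ)} (h : T.chk D p = true)
    (hB : Braid D C) (hL : HasLong D C) (hR : (hG.coverSys F).Rank1)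
    (hs : ∀ i < D.rank, T.ρ (D.simple i) = D.simple (P.getD i (0, 1)).1 ∧ T.lam (D.simple i) = (P.getD i (0, 1)).2 ∧
      T.ρ (D.neg (D.simple i)) = D.neg (D.simple (P.getD i (0, 1)).1) ∧ T.lam (D.neg (D.simple i)) = (P.getD i (0, 1)).2)
    (hbonds : ∀ i < D.rank, ∀ j < D.rank, i ≠ j → D.bonds (P.getD i (0, 1)).1 (P.getD j (0, 1)).1 = D.bonds i j)
    (hexp : ∀ i < D.rank, D.graphExp p i (P.getD i (0, 1)).1 = (P.getD i (0, 1)).2)
    {π : Equiv.Perm (Fin D.rank)} (hπ : ∀ i : Fin D.rank, ((π i : Fin D.rank) : ℕ) = (P.getD i (0, 1)).1)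
    {σ : Fin D.rank → F ≃+* F} (τ : F ≃+* F) (hτ : ∀ (i : Fin D.rank) (t : F), σ i t = (τ t) ^ (P.getD i (0, 1)).2) :
    ∃ (g : ↥(D.group F) ≃* ↥(D.group F)) (τ : F ≃+* F),
      (D.IsDiagramSymmetry π ∧ ∀ (x : ↥(D.group F)) (i : Fin D.rank) (t : F),
        (((x : GL D.Idx F) : Matrix D.Idx D.Idx F) = D.x F (D.simple i) t →
          ((g x : GL D.Idx F) : Matrix D.Idx D.Idx F) = D.x F (D.simple (π i)) (t ^ D.graphExp (ringChar F) i (π i))) ∧
        (((x : GL D.Idx F) : Matrix D.Idx D.Idx F) = D.x F (D.neg (D.simple i)) t →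
          ((g x : GL D.Idx F) : Matrix D.Idx D.Idx F) = D.x F (D.neg (D.simple (π i))) (t ^ D.graphExp (ringChar F) i (π i)))) ∧
      ∀ i t, σ i t = (τ t) ^ D.graphExp (ringChar F) i (π i) := by
  have hperf : ∀ x : F, ∃ y : F, y ^ p = x := by
    have hinj : Function.Injective (frobenius F p) := (frobenius F p).injective
    have hsurj := Finite.injective_iff_surjective.1 hinj
    intro x
    obtain ⟨y, hy⟩ := hsurj x
    exact ⟨y, by rwa [frobenius_def] at hy⟩
  obtain ⟨α, hα⟩ := GF.exists_aut_simple hG h hperf hE hB hL hR hs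
  have hch : ringChar F = p := ringChar.eq F p
  have hexp' : ∀ i : Fin D.rank, D.graphExp (ringChar F) i (π i) = (P.getD i (0, 1)).2 := by
    intro i
    rw [hch, hπ i]
    exact hexp i i.2
  refine ⟨α, τ, ⟨?_, fun x i t => ?_⟩, fun i t => ?_⟩
  · intro i j hij
    rw [hπ i, hπ j]
    exact hbonds i i.2 j j.2 (fun e => hij (Fin.ext e))
  · rw [hexp', hπ i]
    exact hα x i t i.2
  · rw [hexp']
    exact hτ i t

end

section

variable {F : Type*} [Field F]

lemma two_eq_zero_of_sq (u v : F ≃+* F) (h : ∀ c, u c = (v c) ^ 2) : (2 : F) = 0 := by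
  have h1 := h 2
  rw [map_ofNat, map_ofNat] at h1
  linear_combination (-1 : F) * h1

lemma six_eq_zero_of_cube (u v : F ≃+* F) (h : ∀ c, u c = (v c) ^ 3) : (6 : F) = 0 := by
  have h1 := h 2
  rw [map_ofNat, map_ofNat] at h1
  linear_combination (-1 : F) * h1

lemma eq_zero_or_one_of_cube (u v : F ≃+* F) (h : ∀ c, u c = (v c) ^ 3) (h2 : (2 : F) = 0) (x : F) : x = 0 ∨ x = 1 := by
  have h1 := h (v.symm x)
  have h3 := h (v.symm x + 1)
  rw [map_add, map_add, map_one, map_one, h1, v.apply_symm_apply] at h3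
  have h4 : x * (x + 1) = 0 := by
    linear_combination (-1 : F) * h3 + (-(x * x + x) ) * h2
  rcases mul_eq_zero.1 h4 with h5 | h5
  · exact Or.inl h5
  · right
    linear_combination h5 - h2

lemma charP_of_prime_cast {p : ℕ} (hp : p.Prime) (h : (p : F) = 0) : CharP F p := by
  have h1 := ringChar.dvd h
  rcases (Nat.dvd_prime hp).1 h1 with h2 | h2
  · exact absurd h2 (CharP.ringChar_ne_one)
  · exact ringChar.of_eq h2

end

end CfsgLib.Chev
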