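/-
Automorphisms preserving `U` and `V`; the order of the outer automorphism group.
-/
import Cfsg.Agent.Lib.Chev.AutThm

set_option autoImplicit false

namespace CfsgLib.Chev

open Cfsg Cfsg.Lie Cfsg.Lie.ChevalleyDatum CfsgLib.BN

section

variable (D : ChevalleyDatum) (F : Type*) [Field F]

/-- The automorphisms preserving `U` and `V`. -/
def prsAut : Subgroup (MulAut ↥(D.group F)) where
  carrier := {θ | Prs θ (D.posUnipotent F) (D.posUnipotent F) ∧ Prs θ (D.negUnipotent F) (D.negUnipotent F)}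
  mul_mem' := by
    rintro a b ⟨h1, h2⟩ ⟨h3, h4⟩
    refine ⟨fun g => ?_, fun g => ?_⟩
    · rw [h3 g, h1 (b g)]
      rfl
    · rw [h4 g, h2 (b g)]
      rfl
  one_mem' := ⟨fun _ => Iff.rfl, fun _ => Iff.rfl⟩
  inv_mem' := by
    rintro a ⟨h1, h2⟩
    exact ⟨h1.symm, h2.symm⟩

variable {D F}

lemma mem_prsAut {θ : MulAut ↥(D.group F)} : θ ∈ prsAut D F ↔
    Prs θ (D.posUnipotent F) (D.posUnipotent F) ∧ Prs θ (D.negUnipotent F) (D.negUnipotent F) := Iff.rfl

/-- Mapping a finite subgroup into itself. -/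
lemma prs_of_forward [Finite F] {θ : ↥(D.group F) ≃* ↥(D.group F)} {A : Subgroup (GL D.Idx F)} (hA : A ≤ D.group F)
    (h : ∀ g : ↥(D.group F), (g : GL D.Idx F) ∈ A → ((θ g : ↥(D.group F)) : GL D.Idx F) ∈ A) : Prs θ A A := by
  intro g
  refine ⟨h g, fun hg => ?_⟩
  haveI : Finite A := inferInstance
  let f : A → A := fun a => ⟨(θ ⟨a, hA a.2⟩ : ↥(D.group F)), h _ a.2⟩
  have hf : Function.Injective f := by
    intro a b e
    have e0 : (((θ ⟨a, hA a.2⟩ : ↥(D.group F)) : GL D.Idx F)) = ((θ ⟨b, hA b.2⟩ : ↥(D.group F)) : GL D.Idx F) := congrArg (fun z : A => (z : GL D.Idx F)) e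
    have e1 : (θ ⟨a, hA a.2⟩ : ↥(D.group F)) = θ ⟨b, hA b.2⟩ := Subtype.ext e0
    have e2 := θ.injective e1
    have e3 : (a : GL D.Idx F) = b := congrArg (fun z : ↥(D.group F) => (z : GL D.Idx F)) e2
    exact Subtype.ext e3
  obtain ⟨a, ha⟩ := Finite.injective_iff_surjective.1 hf ⟨_, hg⟩
  have e0 : (((θ ⟨a, hA a.2⟩ : ↥(D.group F)) : GL D.Idx F)) = ((θ g : ↥(D.group F)) : GL D.Idx F) := congrArg (fun z : A => (z : GL D.Idx F)) ha
  have e1 : (θ ⟨a, hA a.2⟩ : ↥(D.group F)) = θ g := Subtype.ext e0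
  have e2 := θ.injective e1
  rw [← e2]
  exact a.2

end

section

variable {D : ChevalleyDatum} {C : Cert} (hG : Good D C) {F : Type*} [Field F] (hE : Extra D C)

include hG

/-- An automorphism mapping positive root elements into `U` and negative ones into `V` preserves them. -/
lemma Good.mem_prsAut_of_root [Finite F] {θ : MulAut ↥(D.group F)}
    (h1 : ∀ (r : ℕ) (hr : r < D.nroots), D.IsPosRoot r → ∀ t : F, ((θ (hG.xS hr t) : ↥(D.group F)) : GL D.Idx F) ∈ D.posUnipotent F)
    (h2 : ∀ (r : ℕ) (hr : r < D.nroots), D.IsNegRoot r → ∀ t : F, ((θ (hG.xS hr t) : ↥(D.group F)) : GL D.Idx F) ∈ D.negUnipotent F) :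
    θ ∈ prsAut D F := by
  have hVG : D.negUnipotent F ≤ D.group F := by
    rw [hG.negUnipotent_eq]
    apply (Subgroup.closure_le _).2
    rintro _ ⟨r, hr, t, rfl⟩
    exact hG.mem_group hr.1 t
  refine ⟨prs_of_forward hG.posUnipotent_le_group ?_, prs_of_forward hVG ?_⟩
  · let K : Subgroup (GL D.Idx F) := ((D.posUnipotent F).subgroupOf (D.group F)).comap θ.toMonoidHom |>.map (D.group F).subtype
    have hK : D.posUnipotent F ≤ K := by
      rw [hG.posUnipotent_eq]
      apply (Subgroup.closure_le _).2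
      rintro _ ⟨r, hr, t, rfl⟩
      exact ⟨hG.xS hr.1 t, h1 r hr.1 hr t, rfl⟩
    intro g hg
    obtain ⟨z, hz, e⟩ := hK hg
    have e' : z = g := Subtype.ext e
    rw [← e']
    exact hz
  · let K : Subgroup (GL D.Idx F) := ((D.negUnipotent F).subgroupOf (D.group F)).comap θ.toMonoidHom |>.map (D.group F).subtype
    have hK : D.negUnipotent F ≤ K := by
      rw [hG.negUnipotent_eq]
      apply (Subgroup.closure_le _).2
      rintro _ ⟨r, hr, t, rfl⟩
      exact ⟨hG.xS hr.1 t, h2 r hr.1 hr t, rfl⟩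
    intro g hg
    obtain ⟨z, hz, e⟩ := hK hg
    have e' : z = g := Subtype.ext e
    rw [← e']
    exact hz

/-- Elements of `H` act with the trivial permutation. -/
lemma Good.mono_of_diagonal {g : GL D.Idx F} (hg : g ∈ D.diagonalSubgroup F) : ∃ d, IsMono hG g 1 d := by
  rw [hG.diagonal_eq] at hg
  induction hg using Subgroup.closure_induction with
  | mem x hx =>
    obtain ⟨r, hr, t, ht, rfl⟩ := hx
    exact ⟨_, hG.isMono_hhG hr ht⟩
  | one => exact ⟨_, IsMono.one hG⟩
  | mul x y _ _ hx hy =>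
    obtain ⟨d, hd⟩ := hx
    obtain ⟨d', hd'⟩ := hy
    exact ⟨_, by simpa using hd.mul hd'⟩
  | inv x _ hx =>
    obtain ⟨d, hd⟩ := hx
    exact ⟨_, by simpa using hd.inv⟩

/-- Conjugation by an element of `H` preserves `U` and `V`. -/
lemma Good.conj_mem_prsAut [Finite F] {x : ↥(D.group F)} (hx : (x : GL D.Idx F) ∈ D.diagonalSubgroup F) :
    MulAut.conj x ∈ prsAut D F := by
  obtain ⟨d, hd⟩ := hG.mono_of_diagonal hx
  have key : ∀ (r : ℕ) (hr : r < D.nroots) (t : F), ((MulAut.conj x (hG.xS hr t) : ↥(D.group F)) : GL D.Idx F) = hG.xG r (d ⟨r, hr⟩ * t) := by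
    intro r hr t
    have := hd.conj ⟨r, hr⟩ t
    simpa using this
  apply hG.mem_prsAut_of_root
  · intro r hr hp t
    rw [key]
    exact hG.posUnipotent_mem hp _
  · intro r hr hp t
    rw [key]
    exact hG.negUnipotent_mem hp _

include hE

/-- Normalizing `U` and `V` forces to lie in `H`. -/
lemma Extra.mem_diagonal_of_conj (hB : Braid D C) (hL : HasLong D C) {x : ↥(D.group F)} (hx : MulAut.conj x ∈ prsAut D F) :
    (x : GL D.Idx F) ∈ D.diagonalSubgroup F := by
  obtain ⟨hU, hV⟩ := hx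
  have hnorm : ∀ {A : Subgroup (GL D.Idx F)} {y : GL D.Idx F}, A ≤ D.group F → y ∈ D.group F →
      (∀ z ∈ D.group F, z ∈ A ↔ y * z * y⁻¹ ∈ A) → y ∈ Subgroup.normalizer (A : Set (GL D.Idx F)) := by
    intro A y hA hy h
    rw [Subgroup.mem_normalizer_iff]
    intro z
    by_cases hz : z ∈ D.group F
    · exact h z hz
    · constructor
      · intro h1
        exact absurd (hA h1) hz
      · intro h1
        exfalso
        apply hz
        have := Subgroup.mul_mem _ (Subgroup.mul_mem _ (Subgroup.inv_mem _ hy) (hA h1)) hy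
        simpa [mul_assoc] using this
  have hx1 : (x : GL D.Idx F) ∈ D.borelSubgroup F := by
    rw [← hE.normalizer_U hG hB]
    refine Subgroup.mem_inf.2 ⟨hnorm hG.posUnipotent_le_group x.2 ?_, x.2⟩
    intro z hz
    have := hU ⟨z, hz⟩
    simpa [MulAut.conj_apply] using this
  obtain ⟨n, hn, hmap⟩ := hE.exists_long_elt hG (F := F) hL
  have hnG : n ∈ D.group F := hG.monomial_le_group hn
  have hVG : D.negUnipotent F ≤ D.group F := by
    rw [hG.negUnipotent_eq]
    apply (Subgroup.closure_le _).2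
    rintro _ ⟨r, hr, t, rfl⟩
    exact hG.mem_group hr.1 t
  have hnU : ∀ z, z ∈ D.posUnipotent F ↔ n * z * n⁻¹ ∈ D.negUnipotent F := by
    intro z
    rw [← hmap]
    constructor
    · intro h
      exact ⟨z, h, rfl⟩
    · rintro ⟨u, hu, e⟩
      have e' : n * u * n⁻¹ = n * z * n⁻¹ := e
      have : u = z := by
        have := mul_right_cancel e'
        exact mul_left_cancel this
      rwa [← this]
  have hy1 : n⁻¹ * (x : GL D.Idx F) * n ∈ D.borelSubgroup F := by
    rw [← hE.normalizer_U hG hB]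
    have hyG : n⁻¹ * (x : GL D.Idx F) * n ∈ D.group F :=
      Subgroup.mul_mem _ (Subgroup.mul_mem _ (Subgroup.inv_mem _ hnG) x.2) hnG
    refine Subgroup.mem_inf.2 ⟨hnorm hG.posUnipotent_le_group hyG ?_, hyG⟩
    intro z hz
    have hzn : n * z * n⁻¹ ∈ D.group F := Subgroup.mul_mem _ (Subgroup.mul_mem _ hnG hz) (Subgroup.inv_mem _ hnG)
    have h1 := hV ⟨_, hzn⟩
    have e1 : n * (n⁻¹ * (x : GL D.Idx F) * n * z * (n⁻¹ * (x : GL D.Idx F) * n)⁻¹) * n⁻¹ = x * (n * z * n⁻¹) * (x : GL D.Idx F)⁻¹ := by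
      group
    rw [hnU z, hnU (n⁻¹ * (x : GL D.Idx F) * n * z * (n⁻¹ * (x : GL D.Idx F) * n)⁻¹), e1]
    simpa [MulAut.conj_apply] using h1
  have hx2 : (x : GL D.Idx F) ∈ D.negUnipotent F ⊔ D.diagonalSubgroup F := by
    have hK : D.borelSubgroup F ≤ (D.negUnipotent F ⊔ D.diagonalSubgroup F).comap (MulAut.conj n).toMonoidHom := by
      unfold ChevalleyDatum.borelSubgroup
      refine sup_le ?_ ?_
      · intro z hz
        exact Subgroup.mem_sup_left ((hnU z).1 hz)
      · intro z hz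
        exact Subgroup.mem_sup_right (hE.diagonal_conj hG hn hz)
    have := hK hy1
    have e : (MulAut.conj n).toMonoidHom (n⁻¹ * (x : GL D.Idx F) * n) = x := by
      show n * (n⁻¹ * (x : GL D.Idx F) * n) * n⁻¹ = x
      group
    rw [Subgroup.mem_comap, e] at this
    exact this
  have := Subgroup.mem_inf.2 ⟨hx1, hx2⟩
  rwa [hE.borel_inf_negBorel hG] at this

/-- An element of `H` centralizing the group is trivial. -/
lemma Extra.eq_one_of_diagonal_conj {x : ↥(D.group F)} (hx : (x : GL D.Idx F) ∈ D.diagonalSubgroup F) (h : MulAut.conj x = 1) : x = 1 := by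
  obtain ⟨d, hd⟩ := hG.mono_of_diagonal hx
  have hd1 : d = fun _ => 1 := by
    funext r
    have e1 := hd.conj r 1
    have e2 : (x : GL D.Idx F) * hG.xG r 1 * (x : GL D.Idx F)⁻¹ = hG.xG r 1 := by
      have := DFunLike.congr_fun h (hG.xS r.2 (1 : F))
      exact congrArg Subtype.val this
    rw [e2] at e1
    have := hE.xG_inj hG r.2 e1
    simpa using this.symm
  subst hd1
  exact Subtype.ext (hG.eq_one_of_isMono hE hd)

end

/-- The exponents are either one or the characteristic. -/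
lemma graphExp_inj {F : Type*} [Field F] [Finite F] (i j : ℕ) (D : ChevalleyDatum) {x y : F} (h : x ^ D.graphExp (ringChar F) i j = y ^ D.graphExp (ringChar F) i j) : x = y := by
  unfold ChevalleyDatum.graphExp at h
  split_ifs at h
  · haveI : Fact (ringChar F).Prime := ⟨by
      rcases CharP.char_is_prime_or_zero F (ringChar F) with h0 | h0
      · exact h0
      · exact absurd h0 (CharP.char_ne_zero_of_finite F (ringChar F))⟩
    haveI : CharP F (ringChar F) := ringChar.charP F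
    exact (frobenius F (ringChar F)).injective (by simpa [frobenius_def] using h)
  · simpa using h

section

variable {D : ChevalleyDatum} {C : Cert} (hG : Good D C) {F : Type*} [Field F] (hE : Extra D C)

/-- The standard form of an automorphism preserving `U` and `V`. -/
def Good.IsStd (hG : Good D C) (θ : ↥(D.group F) ≃* ↥(D.group F)) (π : Equiv.Perm (Fin D.rank)) (a : Fin D.rank → Fˣ) (τ : F ≃+* F) : Prop :=
  (∀ i t, ((θ (hG.xS (hG.simple_lt i.2) t) : ↥(D.group F)) : GL D.Idx F) = hG.xG (D.simple (π i)) ((a i : F) * (τ t) ^ D.graphExp (ringChar F) i (π i))) ∧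
  (∀ i t, ((θ (hG.xS (hG.shp.neg_lt _ (hG.simple_lt i.2)) t) : ↥(D.group F)) : GL D.Idx F) = hG.xG (D.neg (D.simple (π i))) (((a i)⁻¹ : Fˣ) * (τ t) ^ D.graphExp (ringChar F) i (π i)))

/-- Two automorphisms agreeing on the fundamental root elements are equal. -/
lemma Extra.aut_ext (hE : Extra D C) {θ θ' : ↥(D.group F) ≃* ↥(D.group F)}
    (h1 : ∀ (i : Fin D.rank) (t : F), θ (hG.xS (hG.simple_lt i.2) t) = θ' (hG.xS (hG.simple_lt i.2) t))
    (h2 : ∀ (i : Fin D.rank) (t : F), θ (hG.xS (hG.shp.neg_lt _ (hG.simple_lt i.2)) t) = θ' (hG.xS (hG.shp.neg_lt _ (hG.simple_lt i.2)) t)) : θ = θ' := by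
  let E : Subgroup ↥(D.group F) := θ.toMonoidHom.eqLocus θ'.toMonoidHom
  have hmem : ∀ {r : ℕ} (hr : r < D.nroots) (t : F), hG.xS hr t ∈ E → hG.xG r t ∈ E.map (D.group F).subtype :=
    fun _ _ h => ⟨_, h, rfl⟩
  have hsub : D.group F ≤ E.map (D.group F).subtype := by
    apply hE.group_le_fund hG
    · intro i hi t
      exact hmem _ t (h1 ⟨i, hi⟩ t)
    · intro i hi t
      exact hmem _ t (h2 ⟨i, hi⟩ t)
  refine MulEquiv.ext fun y => ?_
  obtain ⟨z, hz, e⟩ := hsub y.2
  have e' : z = y := Subtype.ext e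
  rw [← e']
  exact hz

include hE

lemma Good.IsStd.eq_of_same {θ θ' : ↥(D.group F) ≃* ↥(D.group F)} {π : Equiv.Perm (Fin D.rank)} {a : Fin D.rank → Fˣ} {τ : F ≃+* F}
    (h : hG.IsStd θ π a τ) (h' : hG.IsStd θ' π a τ) : θ = θ' := by
  apply hE.aut_ext hG
  · intro i t
    apply Subtype.ext
    rw [h.1, h'.1]
  · intro i t
    apply Subtype.ext
    rw [h.2, h'.2]

include hG in
lemma Extra.simple_injective {i j : Fin D.rank} (h : D.simple i = D.simple j) : i = j := by
  by_contra hij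
  have h1 := hE.coef_simple_self hG (i := i) i.2
  have h2 := hE.coef_simple_ne hG (i := j) (j := i) j.2 i.2 (fun e => hij (Fin.ext e.symm))
  rw [h, h2] at h1
  exact zero_ne_one h1

lemma Good.IsStd.unique [Finite F] (h0 : 0 < D.rank) {θ : ↥(D.group F) ≃* ↥(D.group F)} {π π' : Equiv.Perm (Fin D.rank)} {a a' : Fin D.rank → Fˣ} {τ τ' : F ≃+* F}
    (h : hG.IsStd θ π a τ) (h' : hG.IsStd θ π' a' τ') : π = π' ∧ a = a' ∧ τ = τ' := by
  have key : ∀ (i : Fin D.rank) (t : F), hG.xG (D.simple (π i)) ((a i : F) * (τ t) ^ D.graphExp (ringChar F) i (π i)) =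
      hG.xG (D.simple (π' i)) ((a' i : F) * (τ' t) ^ D.graphExp (ringChar F) i (π' i)) := by
    intro i t
    rw [← h.1, h'.1]
  have hπ : π = π' := by
    ext i
    have e := key i 1
    simp only [map_one, one_pow, mul_one] at e
    have hs := hE.xG_root_inj hG (hG.simple_lt (π i).2) (hE.simple_high hG (π' i).2) (hG.simple_lt (π' i).2) (a' i).ne_zero e
    rw [hE.simple_injective hG hs]
  subst hπ
  have ha : a = a' := by
    funext i
    have e := key i 1
    simp only [map_one, one_pow, mul_one] at e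
    exact Units.ext (hE.xG_inj hG (hG.simple_lt (π i).2) e)
  subst ha
  refine ⟨rfl, rfl, ?_⟩
  ext t
  let i₀ : Fin D.rank := ⟨0, h0⟩
  have e := hE.xG_inj hG (hG.simple_lt (π i₀).2) (key i₀ t)
  have e2 := mul_left_cancel₀ (a i₀).ne_zero e
  exact graphExp_inj _ _ D e2

end

end CfsgLib.Chev
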