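/-
Centralizers of root elements over subfields; the normalizer of a subfield subgroup.
-/
import Cfsg.Agent.Lib.Chev.OutCore
import Cfsg.Agent.Lib.Chev.FieldFix2

set_option autoImplicit false

namespace CfsgLib.Chev

open Cfsg.Lie Cfsg.Lie.ChevalleyDatum CfsgLib.BN

section

variable {D : ChevalleyDatum} {C : Cert} (hG : Good D C) {F : Type*} [Field F] (hE : Extra D C)

include hG hE

/-- An element commuting with a non-trivial element of each positive root group lies in `B`. -/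
theorem Extra.mem_borel_of_commute (hB : Braid D C) {g : GL D.Idx F} (hg : g ∈ D.group F)
    (h : ∀ r (_ : r < D.nroots), D.nroots / 2 ≤ r → ∃ c : F, c ≠ 0 ∧ Commute g (hG.xG r c)) : g ∈ D.borelSubgroup F := by
  classical
  obtain ⟨b, hb, n, hn, u, hu, rfl⟩ := hE.exists_canonical hG hB hg
  obtain ⟨π, d, hm⟩ := hG.mono_of_mem_N hE hn
  have hpos : ∀ r : Fin D.nroots, D.nroots / 2 ≤ r.val → D.nroots / 2 ≤ (π r).val := by
    intro r hr
    by_contra hneg
    push Not at hneg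
    obtain ⟨c, hc, hcomm⟩ := h r r.2 hr
    have hrp : D.IsPosRoot r.val := (hE.posIff _ r.2).2 hr
    have hneg' : D.IsNegRoot (π r).val := (hE.negIff _ (π r).2).2 hneg
    -- the generator lies in `XnSet`
    have hX : hG.xG r.val c ∈ Good.XnSet D F n := by
      refine ⟨r.val, c, hrp, ?_, hG.xG_val _ _⟩
      rintro _ ⟨y, hy, rfl⟩
      obtain ⟨t, rfl⟩ := (hG.rootSubgroup_eq _ _).1 hy
      show n * hG.xG r.val t * n⁻¹ ∈ D.negUnipotent F
      rw [hm.conj r t]
      exact hG.negUnipotent_mem hneg' _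
    set y := hG.xG r.val c with hy
    have hz : u * y * u⁻¹ ∈ Subgroup.closure (Good.XnSet D F n) :=
      Subgroup.mul_mem _ (Subgroup.mul_mem _ hu (Subgroup.subset_closure hX)) (Subgroup.inv_mem _ hu)
    have h1 := hG.XnSet_conj hz
    have hc2 : b * n * u * y = y * (b * n * u) := hcomm
    have e : n * (u * y * u⁻¹) * n⁻¹ = b⁻¹ * y * b := by
      have e1 : b * (n * (u * y * u⁻¹) * n⁻¹) = y * b := by
        calc b * (n * (u * y * u⁻¹) * n⁻¹) = (b * n * u * y) * u⁻¹ * n⁻¹ := by group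
          _ = (y * (b * n * u)) * u⁻¹ * n⁻¹ := by rw [hc2]
          _ = y * b := by group
      calc n * (u * y * u⁻¹) * n⁻¹ = b⁻¹ * (b * (n * (u * y * u⁻¹) * n⁻¹)) := by group
        _ = b⁻¹ * (y * b) := by rw [e1]
        _ = b⁻¹ * y * b := by group
    have h2 : n * (u * y * u⁻¹) * n⁻¹ ∈ D.borelSubgroup F := by
      rw [e]
      exact Subgroup.mul_mem _ (Subgroup.mul_mem _ (Subgroup.inv_mem _ hb) (Subgroup.mem_sup_left (hG.posUnipotent_mem hrp _))) hb
    have h3 := Subgroup.mem_inf.2 ⟨h2, h1⟩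
    rw [hE.borel_inf_neg hG, Subgroup.mem_bot] at h3
    have h4 : u * y * u⁻¹ = 1 := by
      have : n * (u * y * u⁻¹) * n⁻¹ * n = n := by rw [h3, one_mul]
      have h5 : n * (u * y * u⁻¹) = n := by simpa using this
      simpa using h5
    have h5 : y = 1 := by
      have : u * y = u := by
        have h6 : u * y * u⁻¹ * u = u := by rw [h4, one_mul]
        simpa using h6
      simpa using this
    have h6 : hG.xG r.val c = hG.xG r.val 0 := by
      rw [hG.xG_zero]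
      exact h5
    exact hc (hE.xG_inj hG r.2 h6)
  -- `n` normalizes `U`
  have hpos' : ∀ r : Fin D.nroots, D.nroots / 2 ≤ r.val → D.nroots / 2 ≤ (π⁻¹ r).val := by
    let P : Finset (Fin D.nroots) := Finset.univ.filter fun r => D.nroots / 2 ≤ r.val
    have hmap : ∀ r ∈ P, π r ∈ P := by
      intro r hr
      simp only [P, Finset.mem_filter, Finset.mem_univ, true_and] at hr ⊢
      exact hpos r hr
    have himg : P.image π = P := by
      apply Finset.eq_of_subset_of_card_le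
      · intro x hx
        obtain ⟨y, hy, rfl⟩ := Finset.mem_image.1 hx
        exact hmap y hy
      · rw [Finset.card_image_of_injective _ π.injective]
    intro r hr
    have hr' : r ∈ P := by simp [P, hr]
    rw [← himg] at hr'
    obtain ⟨y, hy, rfl⟩ := Finset.mem_image.1 hr'
    simp only [P, Finset.mem_filter, Finset.mem_univ, true_and] at hy
    simpa using hy
  have hnU : ∀ {m : GL D.Idx F} {ρ : Equiv.Perm (Fin D.nroots)} {e : Fin D.nroots → F}, IsMono hG m ρ e →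
      (∀ r : Fin D.nroots, D.nroots / 2 ≤ r.val → D.nroots / 2 ≤ (ρ r).val) → ∀ x ∈ D.posUnipotent F, m * x * m⁻¹ ∈ D.posUnipotent F := by
    intro m ρ e hme hρ x hx
    have hle : D.posUnipotent F ≤ (D.posUnipotent F).comap (MulAut.conj m).toMonoidHom := by
      rw [hG.posUnipotent_eq]
      apply (Subgroup.closure_le _).2
      rintro _ ⟨r, hr, t, rfl⟩
      show m * hG.xG r t * m⁻¹ ∈ Subgroup.closure _
      rw [← hG.posUnipotent_eq]
      have hf := hme.conj ⟨r, hr.1⟩ t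
      simp only at hf
      rw [hf]
      exact hG.posUnipotent_mem ((hE.posIff _ (ρ _).2).2 (hρ _ ((hE.posIff _ hr.1).1 hr))) _
    exact hle hx
  have hnN : n ∈ Subgroup.normalizer (D.posUnipotent F : Set (GL D.Idx F)) := by
    rw [Subgroup.mem_normalizer_iff]
    intro x
    refine ⟨hnU hm hpos x, fun hx => ?_⟩
    have := hnU hm.inv hpos' _ hx
    have e : n⁻¹ * (n * x * n⁻¹) * n⁻¹⁻¹ = x := by group
    rwa [e] at this
  have hnB : n ∈ D.borelSubgroup F := by
    rw [← hE.normalizer_U hG hB]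
    exact Subgroup.mem_inf.2 ⟨hnN, hG.monomial_le_group hn⟩
  exact Subgroup.mul_mem _ (Subgroup.mul_mem _ hb hnB) (Subgroup.mem_sup_left (hG.XnSet_le_U hu))

/-- An element commuting with a non-trivial element of each root group is trivial. -/
theorem Extra.eq_one_of_commute (hB : Braid D C) (hL : HasLong D C) {g : GL D.Idx F} (hg : g ∈ D.group F)
    (h : ∀ r (_ : r < D.nroots), ∃ c : F, c ≠ 0 ∧ Commute g (hG.xG r c)) : g = 1 := by
  have hg1 := hE.mem_borel_of_commute hG hB hg (fun r hr _ => h r hr)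
  obtain ⟨n, hn, hmap⟩ := hE.exists_long_elt hG (F := F) hL
  obtain ⟨π, d, hm⟩ := hG.mono_of_mem_N hE hn
  have hnG : n ∈ D.group F := hG.monomial_le_group hn
  have hnU : ∀ z, z ∈ D.posUnipotent F → n * z * n⁻¹ ∈ D.negUnipotent F := by
    intro z hz
    rw [← hmap]
    exact ⟨z, hz, rfl⟩
  have hy : n⁻¹ * g * n ∈ D.borelSubgroup F := by
    apply hE.mem_borel_of_commute hG hB (Subgroup.mul_mem _ (Subgroup.mul_mem _ (Subgroup.inv_mem _ hnG) hg) hnG)
    intro r hr hrp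
    obtain ⟨c, hc, hcomm⟩ := h (π ⟨r, hr⟩) (π ⟨r, hr⟩).2
    have hd := hm.d_ne ⟨r, hr⟩
    refine ⟨(d ⟨r, hr⟩)⁻¹ * c, mul_ne_zero (inv_ne_zero hd) hc, ?_⟩
    have hconj := hm.conj ⟨r, hr⟩ ((d ⟨r, hr⟩)⁻¹ * c)
    simp only at hconj
    rw [← mul_assoc, mul_inv_cancel₀ hd, one_mul] at hconj
    rw [← hconj] at hcomm
    have hc2 : g * (n * hG.xG r ((d ⟨r, hr⟩)⁻¹ * c) * n⁻¹) = (n * hG.xG r ((d ⟨r, hr⟩)⁻¹ * c) * n⁻¹) * g := hcomm
    show n⁻¹ * g * n * hG.xG r ((d ⟨r, hr⟩)⁻¹ * c) = hG.xG r ((d ⟨r, hr⟩)⁻¹ * c) * (n⁻¹ * g * n)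
    calc n⁻¹ * g * n * hG.xG r ((d ⟨r, hr⟩)⁻¹ * c) = n⁻¹ * (g * (n * hG.xG r ((d ⟨r, hr⟩)⁻¹ * c) * n⁻¹)) * n := by group
      _ = n⁻¹ * ((n * hG.xG r ((d ⟨r, hr⟩)⁻¹ * c) * n⁻¹) * g) * n := by rw [hc2]
      _ = _ := by group
  have hx2 : g ∈ D.negUnipotent F ⊔ D.diagonalSubgroup F := by
    have hK : D.borelSubgroup F ≤ (D.negUnipotent F ⊔ D.diagonalSubgroup F).comap (MulAut.conj n).toMonoidHom := by
      unfold ChevalleyDatum.borelSubgroup
      refine sup_le ?_ ?_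
      · intro z hz
        exact Subgroup.mem_sup_left (hnU z hz)
      · intro z hz
        exact Subgroup.mem_sup_right (hE.diagonal_conj hG hn hz)
    have := hK hy
    have e : (MulAut.conj n).toMonoidHom (n⁻¹ * g * n) = g := by
      show n * (n⁻¹ * g * n) * n⁻¹ = g
      group
    rw [Subgroup.mem_comap, e] at this
    exact this
  have hH := Subgroup.mem_inf.2 ⟨hg1, hx2⟩
  rw [hE.borel_inf_negBorel hG] at hH
  obtain ⟨e, he⟩ := hG.mono_of_diagonal hH
  have he1 : e = fun _ => 1 := by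
    funext r
    obtain ⟨c, hc, hcomm⟩ := h r r.2
    have h1 := he.conj r c
    simp only [Equiv.Perm.one_apply] at h1
    have h2 : g * hG.xG r.val c * g⁻¹ = hG.xG r.val c := by
      rw [hcomm.eq]
      group
    rw [h2] at h1
    have h3 := hE.xG_inj hG r.2 h1
    have h4 : (e r - 1) * c = 0 := by
      rw [sub_mul, one_mul, ← h3, sub_self]
    exact sub_eq_zero.1 ((mul_eq_zero.1 h4).resolve_right hc)
  subst he1
  exact hG.eq_one_of_isMono hE he

end

section fix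

variable {K L : Type*} [Field K] [Field L] (ι : K →+* L)
variable {D : ChevalleyDatum} {C : Cert} (hG : Good D C) (hE : Extra D C) (hB : Braid D C)
variable (σ : L ≃+* L)
variable (hσι : ∀ t, σ (ι t) = ι t) (hι : ∀ t, σ t = t → t ∈ Set.range ι)

include hG hE hB hι hσι in
/-- The decomposition of the fixed points of `σ`. -/
theorem Extra.fix_decomp {g : GL D.Idx L} (hg : g ∈ D.group L)
    (hfix : glMap D σ g = g) : ∃ l₁ ∈ (D.group K).map (glHom ι D), ∃ h₁ ∈ D.diagonalSubgroup L, glMap D σ h₁ = h₁ ∧ ∃ l₂ ∈ (D.group K).map (glHom ι D), g = l₁ * h₁ * l₂ := by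
  classical
  obtain ⟨b, hb, n, hn, u, hu, rfl⟩ := hE.exists_canonical hG hB hg
  obtain ⟨h, hh, l, hl, rfl⟩ := hE.monomial_normal_form hG hn
  set w := hG.nW L l with hw
  have hwN : w ∈ D.monomialSubgroup L := hG.nW_mem_N l
  have hu' : u ∈ Subgroup.closure (Good.XnSet D L w) := by
    have hle : Subgroup.closure (Good.XnSet D L (h * w)) ≤ Subgroup.closure (Good.XnSet D L w) := by
      apply Subgroup.closure_mono
      intro x hx
      exact hE.XnSet_of_mul hG hh hx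
    exact hle hu
  have hbB : b * h ∈ D.borelSubgroup L := mul_mem hb (Subgroup.mem_sup_right hh)
  have hσw : glMap D σ w = w := by
    rw [glMap_eq_glHom, hw, hG.glHom_nW]
  have huσ : glMap D σ u ∈ Subgroup.closure (Good.XnSet D L w) := by
    have hle : Subgroup.closure (Good.XnSet D L w) ≤ (Subgroup.closure (Good.XnSet D L w)).comap (glMap D σ).toMonoidHom := by
      apply (Subgroup.closure_le _).2
      rintro x ⟨r, t, h1, h2, h3⟩
      apply Subgroup.subset_closure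
      refine ⟨r, σ t, h1, h2, ?_⟩
      have e : x = hG.xG r t := Units.ext h3
      rw [e]
      change ((glMap D σ (hG.xG r t) : GL D.Idx L) : Matrix D.Idx D.Idx L) = _
      rw [hG.glMap_x]
      rfl
    exact hle hu'
  have e1 : glMap D σ (b * h) * w * glMap D σ u = (b * h) * w * u := by
    calc glMap D σ (b * h) * w * glMap D σ u = glMap D σ (b * h) * glMap D σ w * glMap D σ u := by rw [hσw]
      _ = glMap D σ ((b * h) * w * u) := by simp only [map_mul]
      _ = glMap D σ (b * (h * w) * u) := by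
          congr 1
          group
      _ = b * (h * w) * u := hfix
      _ = (b * h) * w * u := by group
  obtain ⟨-, h3⟩ := hE.canonical_unique hG hB (hG.glMap_mem_borel σ hbB) hbB hwN hwN huσ hu' e1
  obtain ⟨hb1, hu1⟩ := h3 rfl
  have hU := hE.fix_unipotent ι hG σ hι (hG.XnSet_le_U hu') hu1
  -- the Borel factor
  have hnormU := (hE.diagonal_normalizes_unipotent hG (F := L)).1
  have hbB' := hbB
  unfold ChevalleyDatum.borelSubgroup at hbB'
  obtain ⟨u₁, hu₁, h₁, hh₁, hbe⟩ := (mem_sup_of_le_normalizer hnormU).1 hbB'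
  rw [hbe, map_mul] at hb1
  have hinf := (hE.diagonal_normalizes_unipotent hG (F := L)).2
  have e2 : u₁⁻¹ * glMap D σ u₁ = h₁ * (glMap D σ h₁)⁻¹ := by
    rw [inv_mul_eq_iff_eq_mul, ← mul_assoc, eq_mul_inv_iff_mul_eq]
    exact hb1
  have e3 : u₁⁻¹ * glMap D σ u₁ ∈ D.posUnipotent L ⊓ D.diagonalSubgroup L := by
    refine ⟨Subgroup.mul_mem _ (Subgroup.inv_mem _ hu₁) (hG.glMap_mem_pos σ hu₁), ?_⟩
    rw [e2]
    exact Subgroup.mul_mem _ hh₁ (Subgroup.inv_mem _ (hG.glMap_mem_diag σ hh₁))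
  rw [hinf, Subgroup.mem_bot] at e3
  have e4 : glMap D σ u₁ = u₁ := by
    rw [inv_mul_eq_one] at e3
    exact e3.symm
  have e5 : glMap D σ h₁ = h₁ := by
    rw [e3] at e2
    have := e2.symm
    rw [mul_inv_eq_one] at this
    exact this.symm
  have hU1 := hE.fix_unipotent ι hG σ hι hu₁ e4
  have hW : w ∈ (D.group K).map (glHom ι D) := by
    refine ⟨hG.nW K l, hG.monomial_le_group (hG.nW_mem_N l), ?_⟩
    exact hG.glHom_nW ι l
  refine ⟨u₁, hU1, h₁, hh₁, e5, w * u, mul_mem hW hU, ?_⟩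
  have e6 : b * (h * w) * u = (u₁ * h₁) * w * u := by
    rw [← hbe]
    group
  rw [e6]
  group

include hG hE hι hσι in
/-- Fixed elements of `H` normalize the subgroup over the fixed field. -/
lemma Extra.fix_diag_conj {h : GL D.Idx L} (hh : h ∈ D.diagonalSubgroup L) (hfix : glMap D σ h = h)
    {l : GL D.Idx L} (hl : l ∈ (D.group K).map (glHom ι D)) : h * l * h⁻¹ ∈ (D.group K).map (glHom ι D) := by
  obtain ⟨d, hd⟩ := hG.mono_of_diagonal hh
  have hdσ : ∀ r : Fin D.nroots, σ (d r) = d r := by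
    intro r
    have e1 := hd.conj r (1 : L)
    have e2 := congrArg (glMap D σ) e1
    simp only [map_mul, map_inv, hfix, hG.glMap_x, map_one, mul_one, Equiv.Perm.one_apply] at e2
    have e3 := hd.conj r (1 : L)
    simp only [Equiv.Perm.one_apply] at e3
    rw [e3] at e2
    exact (hE.xG_inj hG r.2 (by simpa using e2)).symm
  obtain ⟨g, hg, rfl⟩ := hl
  have hle : D.group K ≤ ((D.group K).map (glHom ι D)).comap ((MulAut.conj h).toMonoidHom.comp (glHom ι D)) := by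
    apply hG.group_le
    intro r hr t
    show h * glHom ι D (hG.xG r t) * h⁻¹ ∈ (D.group K).map (glHom ι D)
    rw [hG.glHom_x]
    have e1 := hd.conj ⟨r, hr⟩ (ι t)
    simp only [Equiv.Perm.one_apply] at e1
    rw [e1]
    obtain ⟨k, hk⟩ := hι _ (hdσ ⟨r, hr⟩)
    refine ⟨hG.xG r (k * t), hG.mem_group hr _, ?_⟩
    rw [hG.glHom_x, map_mul, hk]
  exact hle hg

include hG hE hB hι hσι in
/-- The commutators of the fixed points lie in the subgroup over the fixed field. -/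
theorem Extra.fix_comm {g x : GL D.Idx L} (hg : g ∈ D.group L) (hx : x ∈ D.group L)
    (hgf : glMap D σ g = g) (hxf : glMap D σ x = x) : g⁻¹ * x⁻¹ * g * x ∈ (D.group K).map (glHom ι D) := by
  set S := (D.group K).map (glHom ι D) with hS
  obtain ⟨l₁, hl₁, h₁, hh₁, hf₁, l₂, hl₂, rfl⟩ := hE.fix_decomp ι hG hB σ hσι hι hg hgf
  obtain ⟨m₁, hm₁, k₁, hk₁, hf₂, m₂, hm₂, rfl⟩ := hE.fix_decomp ι hG hB σ hσι hι hx hxf
  have hconj : ∀ {h : GL D.Idx L}, h ∈ D.diagonalSubgroup L → glMap D σ h = h → ∀ {l : GL D.Idx L}, l ∈ S → h * l * h⁻¹ ∈ S :=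
    fun hh hf _ hl => hE.fix_diag_conj ι hG σ hσι hι hh hf hl
  have hconj' : ∀ {h : GL D.Idx L}, h ∈ D.diagonalSubgroup L → glMap D σ h = h → ∀ {l : GL D.Idx L}, l ∈ S → h⁻¹ * l * h ∈ S := by
    intro h hh hf l hl
    have := hconj (h := h⁻¹) (Subgroup.inv_mem _ hh) (by rw [map_inv, hf]) hl
    simpa using this
  -- normal forms `h * l`
  have h1 : ∃ a ∈ S, l₁ * h₁ * l₂ = h₁ * a := ⟨h₁⁻¹ * l₁ * h₁ * l₂, Subgroup.mul_mem _ (hconj' hh₁ hf₁ hl₁) hl₂, by group⟩
  have h2 : ∃ a ∈ S, m₁ * k₁ * m₂ = k₁ * a := ⟨k₁⁻¹ * m₁ * k₁ * m₂, Subgroup.mul_mem _ (hconj' hk₁ hf₂ hm₁) hm₂, by group⟩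
  obtain ⟨a, ha, ea⟩ := h1
  obtain ⟨b, hb, eb⟩ := h2
  rw [ea, eb]
  have hcomm : h₁ * k₁ = k₁ * h₁ := by
    obtain ⟨d, hd⟩ := hG.mono_of_diagonal hh₁
    obtain ⟨d', hd'⟩ := hG.mono_of_diagonal hk₁
    have e1 := hd.mul hd'
    have e2 := hd'.mul hd
    simp only [one_mul, Equiv.Perm.one_apply] at e1 e2
    have e3 : (fun s => d s * d' s) = fun s => d' s * d s := by
      funext s
      exact mul_comm _ _
    rw [e3] at e1
    exact hE.eq_of_isMono hG e1 e2
  have e : (h₁ * a)⁻¹ * (k₁ * b)⁻¹ * (h₁ * a) * (k₁ * b) =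
      a⁻¹ * (h₁⁻¹ * (b⁻¹ * (k₁⁻¹ * h₁ * a * k₁) )) * b := by group
  have e2 : k₁⁻¹ * h₁ * a * k₁ = h₁ * (k₁⁻¹ * a * k₁) := by
    have : k₁⁻¹ * h₁ = h₁ * k₁⁻¹ := by
      rw [inv_mul_eq_iff_eq_mul, ← mul_assoc, hcomm.symm]
      group
    rw [this]
    group
  rw [e, e2]
  have e3 : h₁⁻¹ * (b⁻¹ * (h₁ * (k₁⁻¹ * a * k₁))) = (h₁⁻¹ * b⁻¹ * h₁) * (k₁⁻¹ * a * k₁) := by group
  rw [e3]
  exact Subgroup.mul_mem _ (Subgroup.mul_mem _ (Subgroup.inv_mem _ ha)
    (Subgroup.mul_mem _ (hconj' hh₁ hf₁ (Subgroup.inv_mem _ hb)) (hconj' hk₁ hf₂ ha))) hb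

end fix

end CfsgLib.Chev
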